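import Cfsg.Agent.H24.MX.Lay

/-!
# S3509 MIX, box M4t: the commutator form of two layers (helper24)

`exists_form` : `lam ≤ i + j` on the roots, `0 < i`, `0 < j`, simply laced: `kap (i + j) ⁅u, v⁆ = B (kap i u) (kap j v)`,
`B` bilinear.
-/

set_option autoImplicit false
set_option linter.unusedSectionVars false

namespace Cfsg.Agent.H24.MX

open CoxeterSystem Cfsg Cfsg.Lie Cfsg.Lie.ChevalleyDatum
open Cfsg.Agent.ChevalleyStructure Cfsg.Agent.ChevalleyStructure.Elts Cfsg.Agent.ChevalleyStructure.CoxeterGeom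
  Cfsg.Agent.ChevalleyStructure.CoxeterGeomTypes Cfsg.Agent.ChevalleyStructure.NPerm
open Cfsg.Agent.Tits.Roots Cfsg.Agent.Tits.Core Cfsg.Agent.Nodes.Reps Cfsg.Agent.Nodes.BNOf
  Cfsg.Agent.Nodes.RGDChev Cfsg.Agent.Nodes.Coroot Cfsg.Agent.Nodes.Unique Cfsg.Agent.Nodes.OppDec
open Cfsg.Agent.KFacts.RgdField Cfsg.Agent.KFacts.RgdChevCoord Cfsg.Agent.KFacts.RgdSL
open Cfsg.Agent.BpExc.Tow Cfsg.Agent.BpExc.TowChev Cfsg.Agent.BpExc.Fr Cfsg.Agent.LangThm
open Cfsg.Agent.H46.Gen (Rt Pr NN xc_br)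
open scoped commutatorElement

section abs

variable {Y I : Type*} [Fintype I] [DecidableEq I] [Group Y] {X : (I → ℤ) → Subgroup Y}

theorem comm_of_gen {N H : Subgroup Y} (hN : H ≤ Subgroup.normalizer (N : Set Y)) {S S' : Set (I → ℤ)}
    (hS : RGD.Sup X S ≤ H) (hS' : RGD.Sup X S' ≤ H)
    (hg : ∀ x ∈ S, ∀ y ∈ S', ∀ a ∈ X x, ∀ b ∈ X y, ⁅a, b⁆ ∈ N) {a b : Y} (ha : a ∈ RGD.Sup X S)
    (hb : b ∈ RGD.Sup X S') : ⁅a, b⁆ ∈ N := by
  have hconj : ∀ g ∈ H, ∀ c ∈ N, g * c * g⁻¹ ∈ N := fun g hg c hc =>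
    (Subgroup.mem_normalizer_iff.1 (hN hg) c).1 hc
  have key : ∀ b : Y, ∃ C : Subgroup Y, ∀ a, a ∈ C ↔ a ∈ H ∧ ⁅a, b⁆ ∈ N := by
    intro b
    refine ⟨{ carrier := {a | a ∈ H ∧ ⁅a, b⁆ ∈ N}
              mul_mem' := ?_
              one_mem' := ⟨one_mem _, by rw [commutatorElement_one_left]; exact one_mem _⟩
              inv_mem' := ?_ }, fun a => Iff.rfl⟩
    · rintro a a' ⟨ha, ha'⟩ ⟨hb, hb'⟩
      refine ⟨mul_mem ha hb, ?_⟩
      have e : ⁅a * a', b⁆ = a * ⁅a', b⁆ * a⁻¹ * ⁅a, b⁆ := by simp only [commutatorElement_def]; group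
      rw [e]
      exact mul_mem (hconj a ha _ hb') ha'
    · rintro a ⟨ha, ha'⟩
      refine ⟨inv_mem ha, ?_⟩
      have e : ⁅a⁻¹, b⁆ = a⁻¹ * (⁅a, b⁆)⁻¹ * (a⁻¹)⁻¹ := by simp only [commutatorElement_def]; group
      rw [e]
      exact hconj _ (inv_mem ha) _ (inv_mem ha')
  have h1 : ∀ y ∈ S', ∀ b ∈ X y, ∀ a ∈ RGD.Sup X S, ⁅a, b⁆ ∈ N := by
    intro y hy b hb a ha
    obtain ⟨C, hC⟩ := key b
    have h2 : RGD.Sup X S ≤ C := RGD.Sup_le fun x hx a ha =>
      (hC a).2 ⟨hS (RGD.le_Sup hx ha), hg x hx y hy a ha b hb⟩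
    exact ((hC a).1 (h2 ha)).2
  obtain ⟨C, hC⟩ := key a
  have h2 : RGD.Sup X S' ≤ C := RGD.Sup_le fun y hy b hb => (hC b).2 ⟨hS' (RGD.le_Sup hy hb), by
    have h3 := inv_mem (h1 y hy b hb a ha)
    rwa [commutatorElement_inv] at h3⟩
  have h3 := inv_mem ((hC b).1 (h2 hb)).2
  rwa [commutatorElement_inv] at h3

theorem sup_induction {S : Set (I → ℤ)} {P : Y → Prop} {u : Y} (hu : u ∈ RGD.Sup X S)
    (h : ∀ a ∈ S, ∀ u ∈ X a, P u) (h1 : P 1) (hm : ∀ u v, P u → P v → P (u * v)) : P u := by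
  have hu' : u ∈ ⨆ z : S, X z.1 := hu
  exact Subgroup.iSup_induction (fun z : S => X z.1) (C := fun u => P u) hu' (fun z u hu => h z.1 z.2 u hu) h1
    fun _ _ h1 h2 => hm _ _ h1 h2

end abs

variable {D : ChevalleyDatum} {l : ℕ} {M : CoxeterMatrix (Fin l)} {hp : IsType D l M}
  {lam : (Fin l → ℤ) →+ ℤ} {i j : ℤ} {r : ℕ} [Fact r.Prime]

local notation "𝔽" => AlgebraicClosure (ZMod r)

variable (hp) in
theorem pr_of (hs : SL M.toCoxeterSystem hp.isCartan) {x y : Fin l → ℤ} (hx : IsRoot M.toCoxeterSystem hp.isCartan x)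
    (hy : IsRoot M.toCoxeterSystem hp.isCartan y) (hxy : IsRoot M.toCoxeterSystem hp.isCartan (x + y)) :
    Pr D l x y := by
  have := finite_W hp M.toCoxeterSystem
  have hroot : ∀ {z}, IsRoot M.toCoxeterSystem hp.isCartan z ↔ Rt D l z := fun {z} => isRoot_iff hp _ z
  have hbd : ∀ {z w}, IsRoot M.toCoxeterSystem hp.isCartan z → IsRoot M.toCoxeterSystem hp.isCartan w →
      -2 ≤ cpr M.toCoxeterSystem hp.isCartan z w ∧ cpr M.toCoxeterSystem hp.isCartan z w ≤ 2 := fun {z w} hz hw => by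
    rcases hs.cases hz hw with ⟨-, h⟩ | ⟨-, h⟩ | ⟨-, -, h, h'⟩ <;> omega
  -- `⟨x, y^∨⟩ = -1`
  have h1 : cpr M.toCoxeterSystem hp.isCartan x y = -1 := by
    have h2 := hbd hxy hy
    rw [cpr_add _ _ _ _ hy, cpr_self _ _ hy] at h2
    rcases hs.cases hx hy with ⟨rfl, h⟩ | ⟨rfl, h⟩ | ⟨hne, hne', h, h'⟩
    · omega
    · exfalso
      rw [neg_add_cancel] at hxy
      exact hxy.ne_zero rfl
    · have h3 : cpr M.toCoxeterSystem hp.isCartan x y ≤ 0 := by omega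
      rcases hs.cases hxy hy with ⟨e, -⟩ | ⟨e, h4⟩ | ⟨-, -, h4, h5⟩
      · exfalso
        rw [add_eq_right] at e
        exact hx.ne_zero e
      · rw [cpr_add _ _ _ _ hy, cpr_self _ _ hy] at h4
        omega
      · rw [cpr_add _ _ _ _ hy, cpr_self _ _ hy] at h5
        omega
  have h1' : cpr M.toCoxeterSystem hp.isCartan y x = -1 := by rw [← hs x y hx hy, h1]
  refine ⟨hroot.1 hx, hroot.1 hy, hroot.1 hxy, fun h => ?_, fun h => ?_, fun h => ?_⟩
  · have h2 := hbd (hroot.2 h) hx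
    rw [sub_eq_add_neg, cpr_add _ _ _ _ hx, cpr_neg _ _ _ hx, cpr_self _ _ hx] at h2
    omega
  · have h2 := hbd (hroot.2 h) hx
    rw [two_smul, cpr_add _ _ _ _ hx, cpr_add _ _ _ _ hx, cpr_self _ _ hx] at h2
    omega
  · have h2 := hbd (hroot.2 h) hy
    rw [two_smul, cpr_add _ _ _ _ hy, cpr_add _ _ _ _ hy, cpr_self _ _ hy] at h2
    omega

/-- `[V_m, V_n] ≤ V_{m+n}` -/
theorem comm_Lv {m n : ℤ} (hm : 0 < m) (hn : 0 < n) {u v : ↥(D.group 𝔽)} (hu : u ∈ US D l 𝔽 (Lv hp lam m))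
    (hv : v ∈ US D l 𝔽 (Lv hp lam n)) : ⁅u, v⁆ ∈ US D l 𝔽 (Lv hp lam (m + n)) := by
  refine comm_of_gen (bt_Lv (hp := hp) (lam := lam) (i := m + n) (by omega)).le_norm (US_le_one hm) (US_le_one hn)
    (fun x hx y hy a ha b hb => ?_) hu hv
  have hx1 := hx.2
  have hy1 := hy.2
  by_cases hxy : x = y
  · subst hxy
    rw [commutatorElement_eq_one_iff_mul_comm.2 (xx_comm hp hx.1 ha hb)]
    exact one_mem _
  · have h4 : x ≠ -y := by
      rintro rfl
      rw [map_neg] at hx1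
      omega
    have h5 := Cfsg.Agent.H508.Dens.comm_mem_int hp M.toCoxeterSystem hx.1 hy.1 hxy h4 ha hb
    refine RGD.Sup_mono ?_ h5
    rintro z ⟨hz, s, t, hs, ht, rfl⟩
    refine ⟨hz, ?_⟩
    rw [map_add, map_zsmul, map_zsmul, smul_eq_mul, smul_eq_mul]
    nlinarith

theorem US_top {m : ℤ} (htop : ∀ b, IsRoot M.toCoxeterSystem hp.isCartan b → lam b ≤ m) {n : ℤ} (hn : m < n)
    {u : ↥(D.group 𝔽)} (hu : u ∈ US D l 𝔽 (Lv hp lam n)) : u = 1 := by
  have h1 : Lv hp lam n = ∅ := by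
    rw [Set.eq_empty_iff_forall_notMem]
    rintro x ⟨h1, h2⟩
    have := htop x h1
    omega
  rw [h1, US, Sup_empty] at hu
  exact Subgroup.mem_bot.1 hu

theorem top_central {m : ℤ} (hm : 0 < m) (htop : ∀ b, IsRoot M.toCoxeterSystem hp.isCartan b → lam b ≤ m)
    {u c : ↥(D.group 𝔽)} (hu : u ∈ US D l 𝔽 (Lv hp lam 1)) (hc : c ∈ US D l 𝔽 (Lv hp lam m)) : u * c = c * u := by
  rw [← commutatorElement_eq_one_iff_mul_comm]
  exact US_top htop (by omega : m < 1 + m) (comm_Lv one_pos hm hu hc)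

/-- commutators of root elements -/
theorem comm_one {x y : Fin l → ℤ} (hx : IsRoot M.toCoxeterSystem hp.isCartan x)
    (hy : IsRoot M.toCoxeterSystem hp.isCartan y) (hs : SL M.toCoxeterSystem hp.isCartan) (h0 : 0 < lam x) (h0' : 0 < lam y)
    (hxy : ¬ IsRoot M.toCoxeterSystem hp.isCartan (x + y)) {a b : ↥(D.group 𝔽)} (ha : a ∈ XX D l 𝔽 x)
    (hb : b ∈ XX D l 𝔽 y) : ⁅a, b⁆ = 1 := by
  have := finite_W hp M.toCoxeterSystem
  by_cases h1 : x = y
  · subst h1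
    rw [commutatorElement_eq_one_iff_mul_comm.2 (xx_comm hp hx ha hb)]
  · have h4 : x ≠ -y := by
      rintro rfl
      rw [map_neg] at h0
      omega
    have h5 := Cfsg.Agent.H508.Dens.comm_mem_int hp M.toCoxeterSystem hx hy h1 h4 ha hb
    have h6 : {z | IsRoot M.toCoxeterSystem hp.isCartan z ∧ ∃ i j : ℤ, 0 < i ∧ 0 < j ∧ z = i • x + j • y} = ∅ := by
      rw [Set.eq_empty_iff_forall_notMem]
      rintro z ⟨hz, m, n, hm, hn, e⟩
      have h7 := (hs.btwn hx hy h1 h4 (Btwn.of_int hz hm hn e)).2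
      rw [h7] at hz
      exact hxy hz
    rw [h6, Sup_empty] at h5
    exact Subgroup.mem_bot.1 h5

/-- **The commutator form.** -/
theorem exists_form (hs : SL M.toCoxeterSystem hp.isCartan) (hi : 0 < i) (hj : 0 < j)
    (htop : ∀ b, IsRoot M.toCoxeterSystem hp.isCartan b → lam b ≤ i + j) :
    ∃ B : (Rl hp lam i → 𝔽) →ₗ[𝔽] (Rl hp lam j → 𝔽) →ₗ[𝔽] (Rl hp lam (i + j) → 𝔽),
      (∀ u ∈ US D l 𝔽 (Lv hp lam i), ∀ v ∈ US D l 𝔽 (Lv hp lam j),
        kap hp lam (i + j) ⁅u, v⁆ = B (kap hp lam i u) (kap hp lam j v)) := by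
  classical
  have := finite_W hp M.toCoxeterSystem
  have := finite_Rl (hp := hp) (lam := lam) (i := i)
  have := finite_Rl (hp := hp) (lam := lam) (i := j)
  have := Fintype.ofFinite (Rl hp lam i)
  have := Fintype.ofFinite (Rl hp lam j)
  have hij : 0 < i + j := by omega
  let B : (Rl hp lam i → 𝔽) →ₗ[𝔽] (Rl hp lam j → 𝔽) →ₗ[𝔽] (Rl hp lam (i + j) → 𝔽) :=
    LinearMap.mk₂ 𝔽 (fun f g b => ∑ x, ∑ y, if x.1 + y.1 = b.1 then (NN D l x.1 y.1 : 𝔽) * (f x * g y) else 0)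
      (fun f f' g => by
        funext b
        simp only [Pi.add_apply, ← Finset.sum_add_distrib]
        refine Finset.sum_congr rfl fun x _ => Finset.sum_congr rfl fun y _ => ?_
        split_ifs
        · ring
        · simp)
      (fun c f g => by
        funext b
        simp only [Pi.smul_apply, smul_eq_mul, Finset.mul_sum]
        refine Finset.sum_congr rfl fun x _ => Finset.sum_congr rfl fun y _ => ?_
        split_ifs
        · ring
        · simp)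
      (fun f g g' => by
        funext b
        simp only [Pi.add_apply, ← Finset.sum_add_distrib]
        refine Finset.sum_congr rfl fun x _ => Finset.sum_congr rfl fun y _ => ?_
        split_ifs
        · ring
        · simp)
      (fun c f g => by
        funext b
        simp only [Pi.smul_apply, smul_eq_mul, Finset.mul_sum]
        refine Finset.sum_congr rfl fun x _ => Finset.sum_congr rfl fun y _ => ?_
        split_ifs
        · ring
        · simp)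
  have hB : ∀ (x : Rl hp lam i) (y : Rl hp lam j) (s t : 𝔽) (b : Rl hp lam (i + j)),
      B (Pi.single x s) (Pi.single y t) b = if x.1 + y.1 = b.1 then (NN D l x.1 y.1 : 𝔽) * (s * t) else 0 := by
    intro x y s t b
    show (∑ x', ∑ y', if x'.1 + y'.1 = b.1 then (NN D l x'.1 y'.1 : 𝔽) * ((Pi.single x s : Rl hp lam i → 𝔽) x' *
      (Pi.single y t : Rl hp lam j → 𝔽) y') else 0) = _
    rw [Finset.sum_eq_single x, Finset.sum_eq_single y]
    · rw [Pi.single_eq_same, Pi.single_eq_same]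
    · intro y' _ hy'
      rw [Pi.single_eq_of_ne hy']
      simp
    · intro h; exact absurd (Finset.mem_univ _) h
    · intro x' _ hx'
      rw [Pi.single_eq_of_ne hx']
      simp
    · intro h; exact absurd (Finset.mem_univ _) h
  refine ⟨B, ?_⟩
  have hcomm : ∀ {u v}, u ∈ US D l 𝔽 (Lv hp lam i) → v ∈ US D l 𝔽 (Lv hp lam j) →
      ⁅u, v⁆ ∈ US D l 𝔽 (Lv hp lam (i + j)) := fun hu hv => comm_Lv hi hj hu hv
  have hcen : ∀ {u c : ↥(D.group 𝔽)}, u ∈ US D l 𝔽 (Lv hp lam 1) → c ∈ US D l 𝔽 (Lv hp lam (i + j)) → u * c * u⁻¹ = c :=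
    fun hu hc => by rw [top_central hij htop hu hc, mul_inv_cancel_right]
  -- generators
  have base : ∀ x ∈ Lv hp lam i, ∀ u ∈ XX D l 𝔽 x, ∀ y ∈ Lv hp lam j, ∀ v ∈ XX D l 𝔽 y,
      kap hp lam (i + j) ⁅u, v⁆ = B (kap hp lam i u) (kap hp lam j v) := by
    intro x hx u hu y hy v hv
    have hu' : u ∈ US D l 𝔽 (Lv hp lam i) := RGD.le_Sup hx hu
    have hv' : v ∈ US D l 𝔽 (Lv hp lam j) := RGD.le_Sup hy hv
    by_cases h1 : lam x = i
    · by_cases h2 : lam y = j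
      · obtain ⟨s, rfl⟩ := ((coord hp hx.1).mem _).1 hu
        obtain ⟨t, rfl⟩ := ((coord hp hy.1).mem _).1 hv
        rw [kap_xc hs hi ⟨x, hx.1, h1⟩ s, kap_xc hs hj ⟨y, hy.1, h2⟩ t]
        by_cases h3 : IsRoot M.toCoxeterSystem hp.isCartan (x + y)
        · have h4 : lam (x + y) = i + j := by rw [map_add, h1, h2]
          rw [xc_br hp (pr_of hp hs hx.1 hy.1 h3), kap_xc hs hij ⟨x + y, h3, h4⟩]
          funext b
          rw [hB]
          by_cases h5 : b = ⟨x + y, h3, h4⟩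
          · subst h5
            rw [Pi.single_eq_same, if_pos rfl]
          · rw [Pi.single_eq_of_ne h5, if_neg]
            intro h6
            exact h5 (Subtype.ext h6.symm)
        · rw [comm_one (hp := hp) (lam := lam) hx.1 hy.1 hs (by omega) (by omega) h3 hu hv, kap_one hs hij]
          funext b
          rw [hB, if_neg]
          · rfl
          · intro h6
            rw [h6] at h3
            exact h3 b.2.1
      · have h3 : v ∈ US D l 𝔽 (Lv hp lam (j + 1)) := RGD.le_Sup (S := Lv hp lam (j + 1)) ⟨hy.1, by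
          have := hy.2
          omega⟩ hv
        rw [kap_of_gt hs hj h3, map_zero, US_top htop (by omega : i + j < i + (j + 1)) (comm_Lv hi (by omega) hu' h3),
          kap_one hs hij]
    · have h3 : u ∈ US D l 𝔽 (Lv hp lam (i + 1)) := RGD.le_Sup (S := Lv hp lam (i + 1)) ⟨hx.1, by
        have := hx.2
        omega⟩ hu
      rw [kap_of_gt hs hi h3, map_zero, LinearMap.zero_apply,
        US_top htop (by omega : i + j < (i + 1) + j) (comm_Lv (by omega) hj h3 hv'), kap_one hs hij]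
  have step : ∀ x ∈ Lv hp lam i, ∀ u ∈ XX D l 𝔽 x, ∀ v ∈ US D l 𝔽 (Lv hp lam j),
      kap hp lam (i + j) ⁅u, v⁆ = B (kap hp lam i u) (kap hp lam j v) := by
    intro x hx u hu v hv
    have hu' : u ∈ US D l 𝔽 (Lv hp lam i) := RGD.le_Sup hx hu
    refine (sup_induction (P := fun v => v ∈ US D l 𝔽 (Lv hp lam j) ∧
      kap hp lam (i + j) ⁅u, v⁆ = B (kap hp lam i u) (kap hp lam j v)) hv ?_ ?_ ?_).2
    · exact fun y hy v hv => ⟨RGD.le_Sup hy hv, base x hx u hu y hy v hv⟩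
    · exact ⟨one_mem _, by rw [commutatorElement_one_right, kap_one hs hij, kap_one hs hj, map_zero]⟩
    · rintro v v' ⟨h1, h2⟩ ⟨h3, h4⟩
      refine ⟨mul_mem h1 h3, ?_⟩
      have e : ⁅u, v * v'⁆ = ⁅u, v⁆ * (v * ⁅u, v'⁆ * v⁻¹) := by simp only [commutatorElement_def]; group
      rw [e, hcen (US_le_one hj h1) (hcomm hu' h3), kap_mul hs hij (hcomm hu' h1) (hcomm hu' h3), h2, h4,
        kap_mul hs hj h1 h3, map_add]
  intro u hu v hv
  refine (sup_induction (P := fun u => u ∈ US D l 𝔽 (Lv hp lam i) ∧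
    kap hp lam (i + j) ⁅u, v⁆ = B (kap hp lam i u) (kap hp lam j v)) hu ?_ ?_ ?_).2
  · exact fun x hx u hu => ⟨RGD.le_Sup hx hu, step x hx u hu v hv⟩
  · exact ⟨one_mem _, by rw [commutatorElement_one_left, kap_one hs hij, kap_one hs hi, map_zero, LinearMap.zero_apply]⟩
  · rintro u u' ⟨h1, h2⟩ ⟨h3, h4⟩
    refine ⟨mul_mem h1 h3, ?_⟩
    have e : ⁅u * u', v⁆ = (u * ⁅u', v⁆ * u⁻¹) * ⁅u, v⁆ := by simp only [commutatorElement_def]; group
    rw [e, hcen (US_le_one hi h1) (hcomm h3 hv), kap_mul hs hij (hcomm h3 hv) (hcomm h1 hv), h2, h4,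
      kap_mul hs hi h1 h3, map_add, LinearMap.add_apply]
    exact add_comm _ _

/-- the span of the values of the commutator form -/
theorem mem_span_form (hs : SL M.toCoxeterSystem hp.isCartan) (hi : 0 < i) (hj : 0 < j)
    (hdec : ∀ b, IsRoot M.toCoxeterSystem hp.isCartan b → lam b = i + j →
      ∃ x y, IsRoot M.toCoxeterSystem hp.isCartan x ∧ IsRoot M.toCoxeterSystem hp.isCartan y ∧ lam x = i ∧ lam y = j ∧ x + y = b)
    {B : (Rl hp lam i → 𝔽) →ₗ[𝔽] (Rl hp lam j → 𝔽) →ₗ[𝔽] (Rl hp lam (i + j) → 𝔽)}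
    (hB : ∀ u ∈ US D l 𝔽 (Lv hp lam i), ∀ v ∈ US D l 𝔽 (Lv hp lam j),
        kap hp lam (i + j) ⁅u, v⁆ = B (kap hp lam i u) (kap hp lam j v)) (z : Rl hp lam (i + j) → 𝔽) :
    z ∈ Submodule.span 𝔽 {x | ∃ v w, B v w = x} := by
  classical
  have := finite_Rl (hp := hp) (lam := lam) (i := i + j)
  have := Fintype.ofFinite (Rl hp lam (i + j))
  have hij : 0 < i + j := by omega
  rw [← Finset.univ_sum_single z]
  refine Submodule.sum_mem _ fun b _ => Submodule.subset_span ?_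
  obtain ⟨x, y, hx, hy, h1, h2, e⟩ := hdec b.1 b.2.1 b.2.2
  have hroot : IsRoot M.toCoxeterSystem hp.isCartan (x + y) := by rw [e]; exact b.2.1
  have hpr := pr_of hp hs hx hy hroot
  have hN : (NN D l x y : 𝔽) ≠ 0 := by
    rcases (Cfsg.Agent.H46.Gen.entry_pair hp hpr).1 with h | h <;> rw [h] <;> simp
  refine ⟨kap hp lam i (xc hp x ((NN D l x y : 𝔽)⁻¹ * z b)), kap hp lam j (xc hp y 1), ?_⟩
  rw [← hB _ (RGD.le_Sup (S := Lv hp lam i) ⟨hx, h1.ge⟩ (xc_mem hp hx _)) _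
    (RGD.le_Sup (S := Lv hp lam j) ⟨hy, h2.ge⟩ (xc_mem hp hy _)), xc_br hp hpr, mul_one, mul_inv_cancel_left₀ hN, e]
  exact kap_xc hs hij b (z b)

end Cfsg.Agent.H24.MX
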