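import Cfsg.Agent.H520.MX.UpC
import Cfsg.Agent.KFacts.RgdSL

/-!
# S3509 MIX, box M4t: the combinatorics of `lam = ∑ ⟨., (g i)^∨⟩` (helper24)

`g i`, `i < a`, orthogonal roots, `a ≥ 2`, simply laced:

* `lam_le` : `lam ≤ a` on the roots;
* `prod_ne_one2` : the character of `y` is not trivial if `0 < lam < a`, `q ≥ 2`;
* `dec_ge_three`, `dec_two` : the roots of level `a` are sums of two roots of levels `2`, `a - 2` (`a ≥ 3`), resp. `1`, `1`
  (`a = 2`, some `lam b` odd);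
* `odd_of_check` : the existence of a root of odd level from the tables.
-/

set_option autoImplicit false
set_option linter.unusedSectionVars false

namespace Cfsg.Agent.H24.MX

open CoxeterSystem Cfsg Cfsg.Lie Cfsg.Lie.ChevalleyDatum
open Cfsg.Agent.ChevalleyStructure Cfsg.Agent.ChevalleyStructure.Elts Cfsg.Agent.ChevalleyStructure.CoxeterGeom
  Cfsg.Agent.ChevalleyStructure.CoxeterGeomTypes Cfsg.Agent.ChevalleyStructure.NPerm
open Cfsg.Agent.Tits.Roots Cfsg.Agent.Tits.Core Cfsg.Agent.Nodes.Reps Cfsg.Agent.Nodes.BNOf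
  Cfsg.Agent.Nodes.RGDChev Cfsg.Agent.Nodes.Coroot Cfsg.Agent.KFacts.RgdSL Cfsg.Agent.H520.MX

/-! ### arithmetic -/

theorem digits_zero2 : ∀ (a : ℕ) (e : ℕ → ℤ), (∀ i < a, |e i| ≤ 1) → ∑ i ∈ Finset.range a, (2 : ℤ) ^ i * e i = 0 →
    ∀ i < a, e i = 0
  | 0, _, _, _ => by simp
  | a + 1, e, he, h0 => by
    rw [Finset.sum_range_succ'] at h0
    have h1 : ∑ i ∈ Finset.range a, (2 : ℤ) ^ (i + 1) * e (i + 1) = 2 * ∑ i ∈ Finset.range a, (2 : ℤ) ^ i * e (i + 1) := by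
      rw [Finset.mul_sum]
      exact Finset.sum_congr rfl fun i _ => by ring
    rw [h1, pow_zero, one_mul] at h0
    have h2 := abs_le.1 (he 0 (by omega))
    have h3 : e 0 = 0 := by omega
    have h4 := digits_zero2 a (fun i => e (i + 1)) (fun i hi => he (i + 1) (by omega)) (by omega)
    intro i hi
    rcases i with _ | i
    · exact h3
    · exact h4 i (by omega)

theorem geom2 (a : ℕ) : ∑ i ∈ Finset.range a, (2 : ℤ) ^ i = 2 ^ a - 1 := by
  induction a with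
  | zero => simp
  | succ a ih => rw [Finset.sum_range_succ, ih, pow_succ]; ring

theorem not_dvd2 {a : ℕ} (ha : 2 ≤ a) {e : ℕ → ℤ} (he : EC a e) (h0 : 0 < ∑ i ∈ Finset.range a, e i)
    (h1 : ∑ i ∈ Finset.range a, e i < a) : ¬ ((2 : ℤ) ^ a - 1) ∣ ∑ i ∈ Finset.range a, (2 : ℤ) ^ i * e i := by
  have h4 : (4 : ℤ) ≤ 2 ^ a := by
    calc (4 : ℤ) = 2 ^ 2 := by norm_num
      _ ≤ 2 ^ a := pow_le_pow_right₀ (by norm_num) ha
  intro hd
  rcases he with he | ⟨k, hk, h2, hz⟩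
  · have hle : |∑ i ∈ Finset.range a, (2 : ℤ) ^ i * e i| ≤ 2 ^ a - 1 := by
      rw [← geom2]
      refine (Finset.abs_sum_le_sum_abs _ _).trans (Finset.sum_le_sum fun i hi => ?_)
      rw [abs_mul, abs_of_pos (by positivity : (0 : ℤ) < 2 ^ i)]
      exact mul_le_of_le_one_right (by positivity) (he i (Finset.mem_range.1 hi))
    have hcases : ∑ i ∈ Finset.range a, (2 : ℤ) ^ i * e i = 0 ∨ ∑ i ∈ Finset.range a, (2 : ℤ) ^ i * e i = 2 ^ a - 1 ∨
        ∑ i ∈ Finset.range a, (2 : ℤ) ^ i * e i = -(2 ^ a - 1) := by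
      by_cases hne : ∑ i ∈ Finset.range a, (2 : ℤ) ^ i * e i = 0
      · exact Or.inl hne
      · have h3 := Int.le_of_dvd (abs_pos.2 hne) ((dvd_abs _ _).2 hd)
        rcases abs_cases (∑ i ∈ Finset.range a, (2 : ℤ) ^ i * e i) with ⟨h, _⟩ | ⟨h, _⟩ <;> rw [h] at h3 hle <;> omega
    rcases hcases with h | h | h
    · have h3 := digits_zero2 a e he h
      rw [Finset.sum_eq_zero fun i hi => h3 i (Finset.mem_range.1 hi)] at h0
      exact lt_irrefl _ h0
    · have h3 : ∑ i ∈ Finset.range a, (2 : ℤ) ^ i * (1 - e i) = 0 := by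
        have : ∑ i ∈ Finset.range a, (2 : ℤ) ^ i * (1 - e i) =
            ∑ i ∈ Finset.range a, (2 : ℤ) ^ i - ∑ i ∈ Finset.range a, (2 : ℤ) ^ i * e i := by
          rw [← Finset.sum_sub_distrib]
          exact Finset.sum_congr rfl fun i _ => by ring
        rw [this, geom2, h, sub_self]
      have h5 := (Finset.sum_eq_zero_iff_of_nonneg fun i hi => by
        have := (abs_le.1 (he i (Finset.mem_range.1 hi))).2
        have h6 : (0 : ℤ) < 2 ^ i := by positivity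
        nlinarith).1 h3
      have h6 : ∑ i ∈ Finset.range a, e i = a := by
        rw [Finset.sum_congr rfl fun i hi => (by
          have h7 := h5 i hi
          have h8 : (2 : ℤ) ^ i ≠ 0 := by positivity
          have h9 := (mul_eq_zero.1 h7).resolve_left h8
          omega : e i = 1)]
        simp
      omega
    · have h3 : ∑ i ∈ Finset.range a, (2 : ℤ) ^ i * (1 + e i) = 0 := by
        have : ∑ i ∈ Finset.range a, (2 : ℤ) ^ i * (1 + e i) =
            ∑ i ∈ Finset.range a, (2 : ℤ) ^ i + ∑ i ∈ Finset.range a, (2 : ℤ) ^ i * e i := by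
          rw [← Finset.sum_add_distrib]
          exact Finset.sum_congr rfl fun i _ => by ring
        rw [this, geom2, h, add_neg_cancel]
      have h5 := (Finset.sum_eq_zero_iff_of_nonneg fun i hi => by
        have := (abs_le.1 (he i (Finset.mem_range.1 hi))).1
        have h6 : (0 : ℤ) < 2 ^ i := by positivity
        nlinarith).1 h3
      have h6 : ∑ i ∈ Finset.range a, e i ≤ 0 := by
        refine Finset.sum_nonpos fun i hi => ?_
        have h7 := h5 i hi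
        have h8 : (2 : ℤ) ^ i ≠ 0 := by positivity
        have h9 := (mul_eq_zero.1 h7).resolve_left h8
        omega
      omega
  · rw [Finset.sum_eq_single k (fun i hi hne => by rw [hz i (Finset.mem_range.1 hi) hne, mul_zero])
      (fun h => absurd (Finset.mem_range.2 hk) h)] at hd
    rw [Finset.sum_eq_single k (fun i hi hne => hz i (Finset.mem_range.1 hi) hne)
      (fun h => absurd (Finset.mem_range.2 hk) h)] at h0
    have h5 : e k = 2 := by rwa [abs_of_pos h0] at h2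
    rw [h5, ← pow_succ] at hd
    have h6 : IsCoprime ((2 : ℤ) ^ a - 1) 2 := by
      refine ⟨-1, 2 ^ (a - 1), ?_⟩
      have : (2 : ℤ) ^ (a - 1) * 2 = 2 ^ a := by rw [← pow_succ]; congr 1; omega
      rw [this]; ring
    have h7 := (h6.pow_right (n := k + 1)).isUnit_of_dvd' dvd_rfl hd
    have h8 := Int.isUnit_iff.1 h7
    omega

theorem prod_ne_one2 {k : Type*} [Field k] {c : k} (hc : c ≠ 0) {q a : ℕ} (hq : 2 ≤ q) (ha : 2 ≤ a)
    (ho : orderOf c = q ^ a - 1) {e : ℕ → ℤ} (he : EC a e) (h0 : 0 < ∑ i ∈ Finset.range a, e i)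
    (h1 : ∑ i ∈ Finset.range a, e i < a) : ∏ i ∈ Finset.range a, c ^ ((q : ℤ) ^ i * e i) ≠ 1 := by
  rcases Nat.lt_or_ge 2 q with hq3 | hq2
  · exact prod_ne_one hc hq3 ha ho he h0.ne'
  have hqe : q = 2 := le_antisymm hq2 hq
  subst hqe
  intro h1'
  have h2 : ∀ s : Finset ℕ, ∏ i ∈ s, c ^ (((2 : ℕ) : ℤ) ^ i * e i) = c ^ (∑ i ∈ s, ((2 : ℕ) : ℤ) ^ i * e i) := by
    intro s
    induction s using Finset.induction_on with
    | empty => simp
    | insert b s hb ih => rw [Finset.prod_insert hb, Finset.sum_insert hb, zpow_add₀ hc, ih]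
  rw [h2] at h1'
  have h3 : (Units.mk0 c hc) ^ (∑ i ∈ Finset.range a, ((2 : ℕ) : ℤ) ^ i * e i) = 1 := Units.ext (by
    rw [Units.val_zpow_eq_zpow_val]
    exact h1')
  have h4 := orderOf_dvd_iff_zpow_eq_one.2 h3
  have h5 : orderOf (Units.mk0 c hc) = orderOf c := (orderOf_units (y := Units.mk0 c hc)).symm
  rw [h5, ho, Nat.cast_sub (Nat.one_le_pow _ _ (by omega)), Nat.cast_pow, Nat.cast_one] at h4
  exact not_dvd2 ha he h0 h1 (by exact_mod_cast h4)

/-! ### roots -/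

section roots

variable {I W : Type*} [Fintype I] [DecidableEq I] [Group W] [Finite W] {M : CoxeterMatrix I}
  {cs : CoxeterSystem M W} {A : I → I → ℤ} {h : IsCartan M A}

theorem sl_of (h4 : ∀ i j, M i j ≠ 4) (h6 : ∀ i j, M i j ≠ 6) : SL cs h := fun _ _ hx hy =>
  Cfsg.Agent.Nodes.SimplyLaced.cpr_symm cs h h4 h6 hx hy

theorem ec_le {a : ℕ} (ha : 2 ≤ a) {e : ℕ → ℤ} (he : EC a e) : ∑ i ∈ Finset.range a, e i ≤ a := by
  rcases he with he | ⟨k, hk, h2, hz⟩
  · calc ∑ i ∈ Finset.range a, e i ≤ ∑ i ∈ Finset.range a, (1 : ℤ) :=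
        Finset.sum_le_sum fun i hi => (abs_le.1 (he i (Finset.mem_range.1 hi))).2
      _ = a := by simp
  · rw [Finset.sum_eq_single k (fun i hi hne => hz i (Finset.mem_range.1 hi) hne)
      (fun h => absurd (Finset.mem_range.2 hk) h)]
    have := le_abs_self (e k)
    omega

/-- all digits are `1` -/
theorem ec_top {a : ℕ} {e : ℕ → ℤ} (he : ∀ i < a, |e i| ≤ 1) (h : ∑ i ∈ Finset.range a, e i = a) :
    ∀ i < a, e i = 1 := by
  have h3 : ∑ i ∈ Finset.range a, (1 - e i) = 0 := by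
    rw [Finset.sum_sub_distrib, h]
    simp
  have h5 := (Finset.sum_eq_zero_iff_of_nonneg fun i hi => by
    have := (abs_le.1 (he i (Finset.mem_range.1 hi))).2
    omega).1 h3
  intro i hi
  have := h5 i (Finset.mem_range.2 hi)
  omega

variable (hs : SL cs h) {a : ℕ} {g : ℕ → I → ℤ} (hg : ∀ i < a, IsRoot cs h (g i))
  (ho : ∀ i < a, ∀ j < a, i ≠ j → cpr cs h (g i) (g j) = 0) {lam : (I → ℤ) →+ ℤ}
  (hlam : ∀ x, lam x = ∑ i ∈ Finset.range a, cpr cs h x (g i))

include hs hg ho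

theorem ec_root {b : I → ℤ} (hb : IsRoot cs h b) : EC a (fun i => cpr cs h b (g i)) := by
  by_cases hex : ∃ k < a, b = g k ∨ b = -g k
  · obtain ⟨k, hk, hbk⟩ := hex
    refine Or.inr ⟨k, hk, ?_, fun i hi hne => ?_⟩
    · rcases hbk with rfl | rfl
      · show |cpr cs h (g k) (g k)| = 2
        rw [cpr_self cs h (hg k hk)]; rfl
      · show |cpr cs h (-g k) (g k)| = 2
        rw [cpr_neg cs h _ (hg k hk), cpr_self cs h (hg k hk)]; rfl
    · rcases hbk with rfl | rfl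
      · exact ho k hk i hi (Ne.symm hne)
      · show cpr cs h (-g k) (g i) = 0
        rw [cpr_neg cs h _ (hg i hi), ho k hk i hi (Ne.symm hne), neg_zero]
  · push Not at hex
    refine Or.inl fun i hi => ?_
    have := hs.abs_le hb (hg i hi) (hex i hi).1 (hex i hi).2
    exact abs_le.2 this

include hlam

theorem lam_le (ha : 2 ≤ a) {b : I → ℤ} (hb : IsRoot cs h b) : lam b ≤ a := by
  rw [hlam]
  exact ec_le ha (ec_root hs hg ho hb)

theorem lam_g {k : ℕ} (hk : k < a) : lam (g k) = 2 := by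
  rw [hlam, Finset.sum_eq_single k (fun i hi hne => ho k hk i (Finset.mem_range.1 hi) (Ne.symm hne))
    (fun hn => absurd (Finset.mem_range.2 hk) hn), cpr_self cs h (hg k hk)]

/-- the roots of level `a ≥ 3` -/
theorem dec_ge_three (ha : 3 ≤ a) {b : I → ℤ} (hb : IsRoot cs h b) (hb0 : lam b = 2 + ((a : ℤ) - 2)) :
    ∃ x y, IsRoot cs h x ∧ IsRoot cs h y ∧ lam x = 2 ∧ lam y = (a : ℤ) - 2 ∧ x + y = b := by
  have h0 : 0 < a := by omega
  have h1 : cpr cs h b (g 0) = 1 := by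
    rcases ec_root hs hg ho hb with he | ⟨k, hk, h2, hz⟩
    · exact ec_top he (by rw [← hlam, hb0]; ring) 0 h0
    · exfalso
      rw [hlam, Finset.sum_eq_single k (fun i hi hne => hz i (Finset.mem_range.1 hi) hne)
        (fun h => absurd (Finset.mem_range.2 hk) h)] at hb0
      have := le_abs_self (cpr cs h b (g k))
      have h2' : |cpr cs h b (g k)| = 2 := h2
      omega
  refine ⟨g 0, b - g 0, hg 0 h0, isRoot_sub hb (hg 0 h0) h1, lam_g hs hg ho hlam h0, ?_, by abel⟩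
  rw [map_sub, lam_g hs hg ho hlam h0, hb0]
  ring

/-- the roots of level `2`, `a = 2` -/
theorem dec_two (ha : a = 2) {θ : (I → ℤ) ≃+ (I → ℤ)} (hθ : ∀ x y, IsRoot cs h x → IsRoot cs h y → cpr cs h (θ x) (θ y) = cpr cs h x y)
    (hθr : ∀ x, IsRoot cs h (θ x) ↔ IsRoot cs h x) (h01 : θ (g 0) = g 1) (h10 : θ (g 1) = g 0)
    (hodd : ∃ c, IsRoot cs h c ∧ ¬ (2 : ℤ) ∣ lam c) {b : I → ℤ} (hb : IsRoot cs h b) (hb0 : lam b = 1 + 1) :
    ∃ x y, IsRoot cs h x ∧ IsRoot cs h y ∧ lam x = 1 ∧ lam y = 1 ∧ x + y = b := by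
  subst ha
  have hg0 := hg 0 (by norm_num)
  have hg1 := hg 1 (by norm_num)
  have hl : ∀ x, lam x = cpr cs h x (g 0) + cpr cs h x (g 1) := fun x => by
    rw [hlam, Finset.sum_range_succ, Finset.sum_range_one]
  have hle : ∀ {b}, IsRoot cs h b → lam b ≤ 2 := fun hb => lam_le hs hg ho hlam le_rfl hb
  have ho1 : cpr cs h (g 0) (g 1) = 0 := ho 0 (by norm_num) 1 (by norm_num) (by norm_num)
  have ho2 : cpr cs h (g 1) (g 0) = 0 := ho 1 (by norm_num) 0 (by norm_num) (by norm_num)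
  have hsub : ∀ {x b : I → ℤ}, IsRoot cs h x → IsRoot cs h b → lam b = 2 → lam x = 1 → cpr cs h b x = 1 →
      ∃ x y, IsRoot cs h x ∧ IsRoot cs h y ∧ lam x = 1 ∧ lam y = 1 ∧ x + y = b := fun {x b} hx hb h1 h2 h3 =>
    ⟨x, b - x, hx, isRoot_sub hb hx h3, h2, by rw [map_sub, h1, h2]; norm_num, by abel⟩
  -- a root with pairings `(1, 0)` or `(0, 1)`
  have hex : ∃ c, IsRoot cs h c ∧ ((cpr cs h c (g 0) = 1 ∧ cpr cs h c (g 1) = 0) ∨
      (cpr cs h c (g 0) = 0 ∧ cpr cs h c (g 1) = 1)) := by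
    obtain ⟨c, hc, hodd⟩ := hodd
    rw [hl] at hodd
    have hn : ∀ {c}, IsRoot cs h c → -1 ≤ cpr cs h c (g 0) ∧ cpr cs h c (g 0) ≤ 1 ∧ -1 ≤ cpr cs h c (g 1) ∧
        cpr cs h c (g 1) ≤ 1 ∨ (2 : ℤ) ∣ cpr cs h c (g 0) + cpr cs h c (g 1) := by
      intro c hc
      rcases ec_root hs hg ho hc with he | ⟨k, hk, h2, hz⟩
      · left
        have h3 := abs_le.1 (he 0 (by norm_num))
        have h4 := abs_le.1 (he 1 (by norm_num))
        exact ⟨h3.1, h3.2, h4.1, h4.2⟩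
      · right
        have h2' : |cpr cs h c (g k)| = 2 := h2
        have h5 : (2 : ℤ) ∣ cpr cs h c (g k) := by
          rcases abs_eq (by norm_num : (0 : ℤ) ≤ 2) |>.1 h2' with h | h <;> rw [h] <;> norm_num
        interval_cases k
        · have h6 : cpr cs h c (g 1) = 0 := hz 1 (by norm_num) (by norm_num)
          rw [h6, add_zero]; exact h5
        · have h6 : cpr cs h c (g 0) = 0 := hz 0 (by norm_num) (by norm_num)
          rw [h6, zero_add]; exact h5
    rcases hn hc with ⟨h1, h2, h3, h4⟩ | h1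
    · have h5 : (cpr cs h c (g 0) = 1 ∧ cpr cs h c (g 1) = 0) ∨ (cpr cs h c (g 0) = 0 ∧ cpr cs h c (g 1) = 1) ∨
          (cpr cs h c (g 0) = -1 ∧ cpr cs h c (g 1) = 0) ∨ (cpr cs h c (g 0) = 0 ∧ cpr cs h c (g 1) = -1) := by omega
      rcases h5 with h5 | h5 | h5 | h5
      · exact ⟨c, hc, Or.inl h5⟩
      · exact ⟨c, hc, Or.inr h5⟩
      · exact ⟨-c, hc.neg, Or.inl (by rw [cpr_neg _ _ _ hg0, cpr_neg _ _ _ hg1]; omega)⟩
      · exact ⟨-c, hc.neg, Or.inr (by rw [cpr_neg _ _ _ hg0, cpr_neg _ _ _ hg1]; omega)⟩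
    · exact absurd h1 hodd
  -- both
  have hboth : (∃ c, IsRoot cs h c ∧ cpr cs h c (g 0) = 1 ∧ cpr cs h c (g 1) = 0) ∧
      (∃ c, IsRoot cs h c ∧ cpr cs h c (g 0) = 0 ∧ cpr cs h c (g 1) = 1) := by
    have ht0 : ∀ {c}, IsRoot cs h c → cpr cs h (θ c) (g 1) = cpr cs h c (g 0) := fun hc => by
      rw [← h01]; exact hθ _ _ hc hg0
    have ht1 : ∀ {c}, IsRoot cs h c → cpr cs h (θ c) (g 0) = cpr cs h c (g 1) := fun hc => by
      conv_lhs => rw [← h10]
      exact hθ _ _ hc hg1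
    obtain ⟨c, hc, ⟨h1, h2⟩ | ⟨h1, h2⟩⟩ := hex
    · exact ⟨⟨c, hc, h1, h2⟩, θ c, (hθr c).2 hc, by rw [ht1 hc, h2], by rw [ht0 hc, h1]⟩
    · exact ⟨⟨θ c, (hθr c).2 hc, by rw [ht1 hc, h2], by rw [ht0 hc, h1]⟩, c, hc, h1, h2⟩
  obtain ⟨⟨c, hc, hc0, hc1⟩, c', hc', hc0', hc1'⟩ := hboth
  have hlc : lam c = 1 := by rw [hl, hc0, hc1]; norm_num
  have hlc' : lam c' = 1 := by rw [hl, hc0', hc1']; norm_num
  have hb2 : lam b = 2 := by rw [hb0]; norm_num
  by_cases hb_0 : b = g 0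
  · subst hb_0
    exact hsub hc hb hb2 hlc (by rw [← hs _ _ hc hb]; exact hc0)
  by_cases hb_1 : b = g 1
  · subst hb_1
    exact hsub hc' hb hb2 hlc' (by rw [← hs _ _ hc' hb]; exact hc1')
  have hbn0 : b ≠ -g 0 := by
    rintro rfl
    rw [map_neg, lam_g hs hg ho hlam (by norm_num)] at hb2
    norm_num at hb2
  have hbn1 : b ≠ -g 1 := by
    rintro rfl
    rw [map_neg, lam_g hs hg ho hlam (by norm_num)] at hb2
    norm_num at hb2
  have e0 := hs.abs_le hb hg0 hb_0 hbn0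
  have e1 := hs.abs_le hb hg1 hb_1 hbn1
  rw [hl] at hb2
  have f0 : cpr cs h b (g 0) = 1 := by omega
  have f1 : cpr cs h b (g 1) = 1 := by omega
  have hb2' : lam b = 2 := by rw [hl]; omega
  have hcb : c ≠ b := by
    rintro rfl
    omega
  have hcb' : c ≠ -b := by
    rintro rfl
    rw [cpr_neg _ _ _ hg0] at hc0
    omega
  have e2 := hs.abs_le hc hb hcb hcb'
  rcases (by omega : cpr cs h c b = 1 ∨ cpr cs h c b = -1 ∨ cpr cs h c b = 0) with h1 | h1 | h1
  · exact hsub hc hb hb2' hlc (by rw [← hs _ _ hc hb]; exact h1)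
  · exfalso
    have h2 := hle (isRoot_add hc hb h1)
    rw [map_add] at h2
    omega
  · -- `x = c + (b - g 0)`
    have hd : IsRoot cs h (b - g 0) := isRoot_sub hb hg0 f0
    have h2 : cpr cs h c (b - g 0) = -1 := by
      rw [hs _ _ hc hd, sub_eq_add_neg, cpr_add _ _ _ _ hc, cpr_neg _ _ _ hc, ← hs _ _ hc hb, ← hs _ _ hc hg0]
      omega
    have hx : IsRoot cs h (c + (b - g 0)) := isRoot_add hc hd h2
    refine hsub hx hb hb2' ?_ ?_
    · rw [map_add, map_sub, hb2', hlc, lam_g hs hg ho hlam (by norm_num)]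
      norm_num
    · rw [← hs _ _ hx hb, cpr_add _ _ _ _ hb, sub_eq_add_neg, cpr_add _ _ _ _ hb, cpr_neg _ _ _ hb, cpr_self _ _ hb,
        ← hs _ _ hb hg0]
      omega

end roots

/-! ### tables -/

/-- the table check -/
def oddChk (D : ChevalleyDatum) (l : ℕ) : Bool :=
  (List.range l).all fun i0 => (List.range D.nroots).all fun t =>
    D.cartan i0 t != 0 || (List.range l).any fun i => (D.cartan i (D.simple i0) + D.cartan i t) % 2 != 0

theorem odd_of_check {D : ChevalleyDatum} {l : ℕ} {M : CoxeterMatrix (Fin l)} (hp : IsType D l M)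
    {W : Type*} [Group W] [Finite W] (cs : CoxeterSystem M W) (hs : SL cs hp.isCartan) (hchk : oddChk D l = true)
    {x y : Fin l → ℤ} (hx : IsRoot cs hp.isCartan x) (hy : IsRoot cs hp.isCartan y) (hxy : cpr cs hp.isCartan y x = 0) :
    ∃ c, IsRoot cs hp.isCartan c ∧ ¬ (2 : ℤ) ∣ cpr cs hp.isCartan c x + cpr cs hp.isCartan c y := by
  obtain ⟨w, i0, rfl⟩ := hx
  have hy' : IsRoot cs hp.isCartan (rep cs hp.isCartan w⁻¹ y) := hy.act _
  have hyw : rep cs hp.isCartan w (rep cs hp.isCartan w⁻¹ y) = y := rep_apply_inv (cs := cs) (h := hp.isCartan) w y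
  obtain ⟨t, ht, e⟩ := (isRoot_iff hp cs _).1 hy'
  rw [cpr_rep_sr, ← e, pairing_vec hp i0 ht] at hxy
  rw [oddChk, List.all_eq_true] at hchk
  have h1 := hchk i0 (List.mem_range.2 i0.2)
  rw [List.all_eq_true] at h1
  have h2 := h1 t (List.mem_range.2 ht)
  rw [hxy] at h2
  simp only [bne_self_eq_false, Bool.false_or, List.any_eq_true, List.mem_range, bne_iff_ne, ne_eq] at h2
  obtain ⟨i, hi, h3⟩ := h2
  have hsi : D.simple i0 < D.nroots := simple_lt hp.inList (lt_rank hp i0)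
  refine ⟨rep cs hp.isCartan w (sr ⟨i, hi⟩), (isRoot_sr cs hp.isCartan _).act w, ?_⟩
  have h4 : cpr cs hp.isCartan (rep cs hp.isCartan w (sr ⟨i, hi⟩)) (rep cs hp.isCartan w (sr i0)) = D.cartan i (D.simple i0) := by
    rw [cpr_rep _ _ _ _ (isRoot_sr cs hp.isCartan i0), hs _ _ (isRoot_sr cs hp.isCartan _) (isRoot_sr cs hp.isCartan i0),
      cpr_sr, ← vec_simple hp i0, pairing_vec hp ⟨i, hi⟩ hsi]
  have h5 : cpr cs hp.isCartan (rep cs hp.isCartan w (sr ⟨i, hi⟩)) y = D.cartan i t := by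
    rw [← hyw, cpr_rep _ _ _ _ hy', hs _ _ (isRoot_sr cs hp.isCartan _) hy', cpr_sr, ← e, pairing_vec hp ⟨i, hi⟩ ht]
  rw [h4, h5]
  omega

theorem oddChk_E6 : oddChk chevE6 6 = true := by decide +kernel

theorem oddChk_E7 : oddChk chevE7 7 = true := by decide +kernel

theorem oddChk_E8 : oddChk chevE8 8 = true := by decide +kernel

end Cfsg.Agent.H24.MX
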