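import Mathlib

/-!
# Forms of semilinear maps (S3509, MIX, helper24)

`φ : k →+* k` with periodic elements and elements of every exact period, `α : V →ₛₗ[φ] V` with periodic vectors.

* `span_fix` : the fixed vectors span `V`;
* `mem_of_span` : a fixed vector in the `k`-span of fixed vectors is an `F_q`-combination of them;
* `form` : `B : V → W → Z` bilinear and equivariant: every fixed `z` in the span of the values is a sum of values at fixed
  vectors;
* `form_closure` : the case `k` algebraic closure of `ZMod p`, `φ c = c ^ q`.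
-/

set_option autoImplicit false

namespace Cfsg.Agent.H24.MX

open Function

section sem

variable {k : Type*} [Field k] (φ : k →+* k)

/-- elements of every exact period -/
def Ex : Prop := ∀ N : ℕ, 0 < N → ∃ ζ : k, φ^[N] ζ = ζ ∧ ∀ i, 0 < i → i < N → φ^[i] ζ ≠ ζ

/-- all elements are periodic -/
def Pe : Prop := ∀ c : k, ∃ N : ℕ, 0 < N ∧ φ^[N] c = c

variable {φ}

theorem iter_map_mul (i : ℕ) (a b : k) : φ^[i] (a * b) = φ^[i] a * φ^[i] b := by
  induction i with
  | zero => rfl
  | succ n ih => rw [iterate_succ_apply', iterate_succ_apply', iterate_succ_apply', ih, map_mul]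

theorem iter_map_pow (i : ℕ) (a : k) (j : ℕ) : φ^[i] (a ^ j) = (φ^[i] a) ^ j := by
  induction i with
  | zero => rfl
  | succ n ih => rw [iterate_succ_apply', iterate_succ_apply', ih, map_pow]

theorem iter_inj (i : ℕ) : Injective (φ^[i]) := φ.injective.iterate i

theorem period_mul {N : ℕ} {c : k} (h : φ^[N] c = c) (m : ℕ) : φ^[N * m] c = c := by
  rw [iterate_mul]
  exact iterate_fixed h m

/-- Lagrange coefficients -/
theorem exists_coeff {N : ℕ} (hN : 0 < N) {ζ : k} (h1 : φ^[N] ζ = ζ) (h2 : ∀ i, 0 < i → i < N → φ^[i] ζ ≠ ζ) :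
    ∃ d : ℕ → k, ∃ n : ℕ, ∀ i < N, ∑ j ∈ Finset.range n, d j * (φ^[i] ζ) ^ j = if i = 0 then 1 else 0 := by
  classical
  let P : Polynomial k := Polynomial.C (∏ i ∈ (Finset.range N).erase 0, (ζ - φ^[i] ζ))⁻¹ *
    ∏ i ∈ (Finset.range N).erase 0, (Polynomial.X - Polynomial.C (φ^[i] ζ))
  have hne : (∏ i ∈ (Finset.range N).erase 0, (ζ - φ^[i] ζ)) ≠ 0 := by
    rw [Finset.prod_ne_zero_iff]
    intro i hi
    rw [Finset.mem_erase, Finset.mem_range] at hi
    exact sub_ne_zero.2 (h2 i (Nat.pos_of_ne_zero hi.1) hi.2).symm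
  refine ⟨P.coeff, P.natDegree + 1, fun i hi => ?_⟩
  rw [← Polynomial.eval_eq_sum_range]
  simp only [P, Polynomial.eval_mul, Polynomial.eval_C, Polynomial.eval_prod, Polynomial.eval_sub, Polynomial.eval_X]
  by_cases h0 : i = 0
  · subst h0
    rw [if_pos rfl]
    exact inv_mul_cancel₀ hne
  · have h3 : ∏ j ∈ (Finset.range N).erase 0, (φ^[i] ζ - φ^[j] ζ) = 0 :=
      Finset.prod_eq_zero (i := i) (Finset.mem_erase.2 ⟨h0, Finset.mem_range.2 hi⟩) (sub_self _)
    rw [if_neg h0, h3, mul_zero]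

section V

variable {V : Type*} [AddCommGroup V] [Module k V] (α : V →ₛₗ[φ] V)

theorem iter_add (i : ℕ) (a b : V) : α^[i] (a + b) = α^[i] a + α^[i] b := by
  induction i with
  | zero => rfl
  | succ n ih => rw [iterate_succ_apply', iterate_succ_apply', iterate_succ_apply', ih, map_add]

theorem iter_smul (i : ℕ) (c : k) (v : V) : α^[i] (c • v) = φ^[i] c • α^[i] v := by
  induction i with
  | zero => rfl
  | succ n ih => rw [iterate_succ_apply', iterate_succ_apply', iterate_succ_apply', ih, LinearMap.map_smulₛₗ]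

/-- the trace `∑ φ^i(c) α^i(v)` -/
def tr (N : ℕ) (c : k) (v : V) : V := ∑ i ∈ Finset.range N, φ^[i] c • α^[i] v

theorem tr_fix {N : ℕ} {c : k} {v : V} (hc : φ^[N] c = c) (hv : α^[N] v = v) : α (tr α N c v) = tr α N c v := by
  rw [tr, map_sum]
  have h1 : ∀ i ∈ Finset.range N, α (φ^[i] c • α^[i] v) = φ^[i + 1] c • α^[i + 1] v := by
    intro i _
    rw [LinearMap.map_smulₛₗ, iterate_succ_apply', iterate_succ_apply']
  rw [Finset.sum_congr rfl h1]
  have h2 := Finset.sum_range_succ' (fun i => φ^[i] c • α^[i] v) N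
  have h3 := Finset.sum_range_succ (fun i => φ^[i] c • α^[i] v) N
  rw [h2] at h3
  simp only [iterate_zero, id_eq, hc, hv] at h3
  exact add_right_cancel h3

/-- every periodic vector is a combination of its traces -/
theorem mem_span_fix (hE : Ex φ) {v : V} {N : ℕ} (hN : 0 < N) (hv : α^[N] v = v) :
    v ∈ Submodule.span k {w : V | α w = w} := by
  obtain ⟨ζ, h1, h2⟩ := hE N hN
  obtain ⟨d, n, hd⟩ := exists_coeff hN h1 h2
  have hs : v = ∑ j ∈ Finset.range n, d j • tr α N (ζ ^ j) v := by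
    simp only [tr, Finset.smul_sum]
    rw [Finset.sum_comm]
    have h3 : ∀ i ∈ Finset.range N, ∑ j ∈ Finset.range n, d j • (φ^[i] (ζ ^ j) • α^[i] v) =
        (if i = 0 then (1 : k) else 0) • α^[i] v := by
      intro i hi
      rw [← hd i (Finset.mem_range.1 hi), Finset.sum_smul]
      refine Finset.sum_congr rfl fun j _ => ?_
      rw [iter_map_pow, smul_smul]
    rw [Finset.sum_congr rfl h3]
    rw [Finset.sum_eq_single_of_mem 0 (Finset.mem_range.2 hN)]
    · rw [if_pos rfl, one_smul, iterate_zero, id_eq]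
    · intro i _ hi
      rw [if_neg hi, zero_smul]
  rw [hs]
  refine Submodule.sum_mem _ fun j _ => Submodule.smul_mem _ _ (Submodule.subset_span ?_)
  exact tr_fix α (by rw [iter_map_pow, h1]) hv

/-- **The fixed vectors span.** -/
theorem span_fix (hE : Ex φ) (hper : ∀ v : V, ∃ N : ℕ, 0 < N ∧ α^[N] v = v) :
    Submodule.span k {w : V | α w = w} = ⊤ := by
  rw [eq_top_iff]
  intro v _
  obtain ⟨N, hN, hv⟩ := hper v
  exact mem_span_fix α hE hN hv

/-- trace of scalars -/
theorem exists_tr_one (hE : Ex φ) {N : ℕ} (hN : 0 < N) :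
    ∃ e : k, φ^[N] e = e ∧ ∑ i ∈ Finset.range N, φ^[i] e = 1 := by
  obtain ⟨ζ, h1, h2⟩ := hE N hN
  obtain ⟨d, n, hd⟩ := exists_coeff hN h1 h2
  let T : k → k := fun c => ∑ i ∈ Finset.range N, φ^[i] c
  have hTfix : ∀ c, φ^[N] c = c → φ (T c) = T c := by
    intro c hc
    simp only [T, map_sum]
    have h1 : ∀ i ∈ Finset.range N, φ (φ^[i] c) = φ^[i + 1] c := fun i _ => by rw [iterate_succ_apply']
    rw [Finset.sum_congr rfl h1]
    have h2 := Finset.sum_range_succ' (fun i => φ^[i] c) N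
    have h3 := Finset.sum_range_succ (fun i => φ^[i] c) N
    rw [h2] at h3
    simp only [iterate_zero, id_eq, hc] at h3
    exact add_right_cancel h3
  have hs : ∑ j ∈ Finset.range n, d j * T (ζ ^ j) = 1 := by
    simp only [T, Finset.mul_sum]
    rw [Finset.sum_comm]
    have h3 : ∀ i ∈ Finset.range N, ∑ j ∈ Finset.range n, d j * φ^[i] (ζ ^ j) = if i = 0 then (1 : k) else 0 := by
      intro i hi
      rw [← hd i (Finset.mem_range.1 hi)]
      refine Finset.sum_congr rfl fun j _ => ?_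
      rw [iter_map_pow]
    rw [Finset.sum_congr rfl h3, Finset.sum_ite_eq' (Finset.range N) 0 (fun _ => (1 : k)), if_pos (Finset.mem_range.2 hN)]
  obtain ⟨j, -, hj⟩ : ∃ j ∈ Finset.range n, T (ζ ^ j) ≠ 0 := by
    by_contra hcon
    push Not at hcon
    rw [Finset.sum_eq_zero (fun j hj => by rw [hcon j hj, mul_zero])] at hs
    exact zero_ne_one hs
  have hz : φ^[N] (ζ ^ j) = ζ ^ j := by rw [iter_map_pow, h1]
  have hτ := hTfix _ hz
  have hτi : φ (T (ζ ^ j))⁻¹ = (T (ζ ^ j))⁻¹ := by rw [map_inv₀, hτ]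
  have hτn : ∀ i, φ^[i] (T (ζ ^ j))⁻¹ = (T (ζ ^ j))⁻¹ := fun i => iterate_fixed hτi i
  refine ⟨ζ ^ j * (T (ζ ^ j))⁻¹, ?_, ?_⟩
  · rw [iter_map_mul, hz, hτn]
  · have h4 : ∀ i ∈ Finset.range N, φ^[i] (ζ ^ j * (T (ζ ^ j))⁻¹) = φ^[i] (ζ ^ j) * (T (ζ ^ j))⁻¹ := by
      intro i _
      rw [iter_map_mul, hτn]
    rw [Finset.sum_congr rfl h4, ← Finset.sum_mul]
    exact mul_inv_cancel₀ hj

/-- a common period of finitely many scalars -/
theorem exists_period (hP : Pe φ) {ι : Type*} (s : Finset ι) (c : ι → k) :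
    ∃ N : ℕ, 0 < N ∧ ∀ i ∈ s, φ^[N] (c i) = c i := by
  classical
  induction s using Finset.induction_on with
  | empty => exact ⟨1, one_pos, by simp⟩
  | insert a s _ ih =>
    obtain ⟨N, hN, h⟩ := ih
    obtain ⟨M, hM, h'⟩ := hP (c a)
    refine ⟨N * M, Nat.mul_pos hN hM, fun i hi => ?_⟩
    rw [Finset.mem_insert] at hi
    rcases hi with rfl | hi
    · rw [mul_comm]; exact period_mul h' N
    · exact period_mul (h i hi) M

/-- **A fixed vector in the span of `W₀`** (fixed vectors, closed under `F_q`) **is in `W₀`.** -/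
theorem mem_of_span (hE : Ex φ) (hP : Pe φ) {W₀ : AddSubgroup V} (h1 : ∀ w ∈ W₀, α w = w)
    (h2 : ∀ c : k, φ c = c → ∀ w ∈ W₀, c • w ∈ W₀) {z : V} (hz : α z = z)
    (hs : z ∈ Submodule.span k (W₀ : Set V)) : z ∈ W₀ := by
  classical
  obtain ⟨n, c, w, hcw⟩ := Submodule.mem_span_set'.1 hs
  obtain ⟨N, hN, hc⟩ := exists_period hP Finset.univ c
  obtain ⟨e, he, he1⟩ := exists_tr_one hE hN
  have hzi : ∀ i, α^[i] z = z := fun i => iterate_fixed hz i
  have hwi : ∀ i j, α^[i] (w j : V) = w j := fun i j => iterate_fixed (h1 _ (w j).2) i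
  have hsum : ∀ (i : ℕ) (s : Finset (Fin n)) (f : Fin n → V), α^[i] (∑ j ∈ s, f j) = ∑ j ∈ s, α^[i] (f j) := by
    intro i s f
    induction s using Finset.induction_on with
    | empty =>
      simp only [Finset.sum_empty]
      exact iterate_fixed (map_zero α) i
    | insert a s ha ih => rw [Finset.sum_insert ha, Finset.sum_insert ha, iter_add, ih]
  have h3 : ∀ i, z = ∑ j, φ^[i] (c j) • (w j : V) := by
    intro i
    rw [← hzi i]
    conv_lhs => rw [← hcw]
    rw [hsum]
    refine Finset.sum_congr rfl fun j _ => ?_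
    rw [iter_smul, hwi]
  let T : k → k := fun c => ∑ i ∈ Finset.range N, φ^[i] c
  have hTfix : ∀ c, φ^[N] c = c → φ (T c) = T c := by
    intro c hc
    simp only [T, map_sum]
    have h1 : ∀ i ∈ Finset.range N, φ (φ^[i] c) = φ^[i + 1] c := fun i _ => by rw [iterate_succ_apply']
    rw [Finset.sum_congr rfl h1]
    have h2 := Finset.sum_range_succ' (fun i => φ^[i] c) N
    have h3 := Finset.sum_range_succ (fun i => φ^[i] c) N
    rw [h2] at h3
    simp only [iterate_zero, id_eq, hc] at h3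
    exact add_right_cancel h3
  have h4 : z = ∑ j, T (e * c j) • (w j : V) := by
    have h5 : z = ∑ i ∈ Finset.range N, φ^[i] e • z := by rw [← Finset.sum_smul, he1, one_smul]
    rw [h5]
    have h6 : ∀ i ∈ Finset.range N, φ^[i] e • z = ∑ j, φ^[i] (e * c j) • (w j : V) := by
      intro i _
      conv_lhs => rw [h3 i]
      rw [Finset.smul_sum]
      refine Finset.sum_congr rfl fun j _ => ?_
      rw [smul_smul, iter_map_mul]
    rw [Finset.sum_congr rfl h6, Finset.sum_comm]
    refine Finset.sum_congr rfl fun j _ => ?_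
    rw [Finset.sum_smul]
  rw [h4]
  refine AddSubgroup.sum_mem _ fun j _ => h2 _ (hTfix _ ?_) _ (w j).2
  rw [iter_map_mul, he, hc j (Finset.mem_univ j)]

end V

/-- **FORM lemma.** -/
theorem form {V W Z : Type*} [AddCommGroup V] [Module k V] [AddCommGroup W] [Module k W] [AddCommGroup Z] [Module k Z]
    (hE : Ex φ) (hP : Pe φ) (α : V →ₛₗ[φ] V) (β : W →ₛₗ[φ] W) (γ : Z →ₛₗ[φ] Z)
    (hα : ∀ v : V, ∃ N : ℕ, 0 < N ∧ α^[N] v = v) (hβ : ∀ v : W, ∃ N : ℕ, 0 < N ∧ β^[N] v = v)
    (B : V →ₗ[k] W →ₗ[k] Z) (hB : ∀ v w, γ (B v w) = B (α v) (β w)) {z : Z} (hz : γ z = z)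
    (hs : z ∈ Submodule.span k {x | ∃ v w, B v w = x}) :
    z ∈ AddSubgroup.closure {x | ∃ v w, α v = v ∧ β w = w ∧ B v w = x} := by
  refine mem_of_span γ hE hP ?_ ?_ hz ?_
  · intro w hw
    induction hw using AddSubgroup.closure_induction with
    | mem x hx =>
      obtain ⟨v, w, hv, hw, rfl⟩ := hx
      rw [hB, hv, hw]
    | zero => exact map_zero γ
    | add x y _ _ hx hy => rw [map_add, hx, hy]
    | neg x _ hx => rw [map_neg, hx]
  · intro c hc w hw
    induction hw using AddSubgroup.closure_induction with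
    | mem x hx =>
      obtain ⟨v, w, hv, hw, rfl⟩ := hx
      refine AddSubgroup.subset_closure ⟨c • v, w, ?_, hw, ?_⟩
      · rw [LinearMap.map_smulₛₗ, hc, hv]
      · rw [map_smul, LinearMap.smul_apply]
    | zero => rw [smul_zero]; exact AddSubgroup.zero_mem _
    | add x y _ _ hx hy => rw [smul_add]; exact AddSubgroup.add_mem _ hx hy
    | neg x _ hx => rw [smul_neg]; exact AddSubgroup.neg_mem _ hx
  · have hle : Submodule.span k {x | ∃ v w, B v w = x} ≤ Submodule.span k
        ((AddSubgroup.closure {x | ∃ v w, α v = v ∧ β w = w ∧ B v w = x} : AddSubgroup Z) : Set Z) := by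
      rw [Submodule.span_le]
      rintro _ ⟨v, w, rfl⟩
      have hv : v ∈ Submodule.span k {v : V | α v = v} := by rw [span_fix α hE hα]; trivial
      have hw : w ∈ Submodule.span k {v : W | β v = v} := by rw [span_fix β hE hβ]; trivial
      induction hv using Submodule.span_induction with
      | mem v hv =>
        induction hw using Submodule.span_induction with
        | mem w hw => exact Submodule.subset_span (AddSubgroup.subset_closure ⟨v, w, hv, hw, rfl⟩)
        | zero => rw [map_zero]; exact Submodule.zero_mem _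
        | add x y _ _ hx hy => rw [map_add]; exact Submodule.add_mem _ hx hy
        | smul c x _ hx => rw [map_smul]; exact Submodule.smul_mem _ _ hx
      | zero => rw [map_zero, LinearMap.zero_apply]; exact Submodule.zero_mem _
      | add x y _ _ hx hy => rw [map_add, LinearMap.add_apply]; exact Submodule.add_mem _ hx hy
      | smul c x _ hx => rw [map_smul, LinearMap.smul_apply]; exact Submodule.smul_mem _ _ hx
    exact hle hs

end sem

section closure

variable {k : Type*} [Field k] {p : ℕ} [Fact p.Prime] [CharP k p]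

/-- the `q`-power map -/
noncomputable def fr (k : Type*) [Field k] (p : ℕ) [Fact p.Prime] [CharP k p] (f : ℕ) : k →+* k :=
  iterateFrobenius k p f

theorem fr_apply (f : ℕ) (c : k) : fr k p f c = c ^ p ^ f := iterateFrobenius_def p f c

theorem fr_iter (f i : ℕ) (c : k) : (fr k p f)^[i] c = c ^ (p ^ f) ^ i := by
  induction i with
  | zero => simp
  | succ n ih => rw [iterate_succ_apply', ih, fr_apply, ← pow_mul, ← pow_succ]

theorem ex_fr [IsAlgClosed k] {f : ℕ} (hf : 0 < f) : Ex (fr k p f) := by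
  intro N hN
  have hp := (Fact.out : p.Prime)
  set q := p ^ f with hq
  have hq2 : 2 ≤ q := hp.two_le.trans (Nat.le_self_pow hf.ne' p)
  have hqN : 2 ≤ q ^ N := hq2.trans (Nat.le_self_pow hN.ne' q)
  have hcop : ¬ p ∣ q ^ N - 1 := by
    intro h
    have h1 : p ∣ q ^ N := by
      rw [hq, ← pow_mul]
      exact dvd_pow_self p (Nat.mul_pos hf hN).ne'
    have h2 : p ∣ q ^ N - (q ^ N - 1) := Nat.dvd_sub h1 h
    rw [Nat.sub_sub_self (by omega)] at h2
    exact hp.one_lt.ne' (Nat.dvd_one.1 h2)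
  have hne : NeZero ((q ^ N - 1 : ℕ) : k) := ⟨fun h => hcop ((CharP.cast_eq_zero_iff k p _).1 h)⟩
  have hne' : NeZero (q ^ N - 1) := ⟨by omega⟩
  obtain ⟨ζ, hζ⟩ := HasEnoughRootsOfUnity.exists_primitiveRoot k (q ^ N - 1)
  have hζ0 : ζ ≠ 0 := hζ.ne_zero (by omega)
  refine ⟨ζ, ?_, fun i hi hiN h => ?_⟩
  · rw [fr_iter, ← hq]
    have : ζ ^ q ^ N = ζ ^ (q ^ N - 1) * ζ := by rw [← pow_succ]; congr 1; omega
    rw [this, hζ.pow_eq_one, one_mul]
  · rw [fr_iter, ← hq] at h
    have h1 : ζ ^ (q ^ i - 1) = 1 := by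
      have h2 : ζ ^ q ^ i = ζ ^ (q ^ i - 1) * ζ := by
        rw [← pow_succ]; congr 1
        have : 0 < q ^ i := by positivity
        omega
      rw [h2] at h
      exact mul_right_cancel₀ hζ0 (h.trans (one_mul ζ).symm)
    have h3 := hζ.dvd_of_pow_eq_one _ h1
    have h4 : q ^ i < q ^ N := Nat.pow_lt_pow_right (by omega) hiN
    have h5 : 2 ≤ q ^ i := hq2.trans (Nat.le_self_pow hi.ne' q)
    have h6 := Nat.le_of_dvd (by omega) h3
    omega

theorem pe_fr [Algebra (ZMod p) k] [Algebra.IsAlgebraic (ZMod p) k] (f : ℕ) : Pe (fr k p f) := by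
  intro c
  have hint : IsIntegral (ZMod p) c := Algebra.IsIntegral.isIntegral c
  have hfin : FiniteDimensional (ZMod p) (IntermediateField.adjoin (ZMod p) ({c} : Set k)) :=
    IntermediateField.adjoin.finiteDimensional hint
  have hfin' : Finite (IntermediateField.adjoin (ZMod p) ({c} : Set k)) := Module.finite_of_finite (ZMod p)
  have := Fintype.ofFinite (IntermediateField.adjoin (ZMod p) ({c} : Set k))
  obtain ⟨n, hn⟩ := FiniteField.card (IntermediateField.adjoin (ZMod p) ({c} : Set k)) p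
  have hc : (⟨c, IntermediateField.mem_adjoin_simple_self _ c⟩ : IntermediateField.adjoin (ZMod p) ({c} : Set k)) ^
      p ^ (n : ℕ) = ⟨c, IntermediateField.mem_adjoin_simple_self _ c⟩ := by
    rw [← hn.2]
    exact FiniteField.pow_card _
  have hc' : c ^ p ^ (n : ℕ) = c := by
    have := congrArg Subtype.val hc
    simpa using this
  refine ⟨n, n.pos, ?_⟩
  rw [fr_iter, ← pow_mul, mul_comm f, pow_mul]
  have : ∀ m : ℕ, c ^ (p ^ (n : ℕ)) ^ m = c := by
    intro m
    induction m with
    | zero => simp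
    | succ m ih => rw [pow_succ, pow_mul, ih, hc']
  exact this f

end closure

end Cfsg.Agent.H24.MX
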