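import Cfsg.Agent.H24.MX.Com
import Cfsg.Agent.H24.MX.Form
import Cfsg.Agent.H380.RC.Rules

/-!
# S3509 MIX, box M4t: descent (helper24)

`α` a frame automorphism of Frobenius type, `lam` invariant:

* `exists_sem` : `kap i (α u) = γ (kap i u)`, `γ` semilinear, with periodic vectors;
* `exists_lift` : the fixed vectors of `γ` are the `kap i u`, `α u = u` (Lang);
* `mem_of_comm` : the fixed points in the top layer `i + j` lie in every subgroup containing the `⁅u, v⁆`, `u`, `v` fixed of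
  level `i`, `j`.
-/

set_option autoImplicit false
set_option linter.unusedSectionVars false

namespace Cfsg.Agent.H24.MX

open CoxeterSystem Cfsg Cfsg.Lie Cfsg.Lie.ChevalleyDatum
open Cfsg.Agent.ChevalleyStructure Cfsg.Agent.ChevalleyStructure.Elts Cfsg.Agent.ChevalleyStructure.CoxeterGeom
  Cfsg.Agent.ChevalleyStructure.CoxeterGeomTypes Cfsg.Agent.ChevalleyStructure.NPerm
open Cfsg.Agent.Tits.Roots Cfsg.Agent.Tits.Core Cfsg.Agent.Nodes.Reps Cfsg.Agent.Nodes.BNOf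
  Cfsg.Agent.Nodes.RGDChev Cfsg.Agent.Nodes.Coroot Cfsg.Agent.Nodes.Unique Cfsg.Agent.Nodes.OppDec
open Cfsg.Agent.KFacts.RgdField Cfsg.Agent.KFacts.RgdChevCoord Cfsg.Agent.KFacts.RgdSL
open Cfsg.Agent.BpExc.Tow Cfsg.Agent.BpExc.TowChev Cfsg.Agent.BpExc.Fr Cfsg.Agent.BpExc.LangFr Cfsg.Agent.LangThm
open scoped commutatorElement
open Function

section per

variable {k : Type*} [Field k] {φ : k →+* k}

/-- monomial semilinear maps have periodic vectors -/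
theorem periodic_pi (hP : Pe φ) (hfin : ∀ N, 0 < N → {c : k | φ^[N] c = c}.Finite) {ι : Type*} [Finite ι]
    (π : Equiv.Perm ι) {w : ι → k} (hw : ∀ b, w b ≠ 0) {γ : (ι → k) → (ι → k)}
    (hγ : ∀ f b, γ f (π b) = w b * φ (f b)) (f : ι → k) : ∃ N : ℕ, 0 < N ∧ γ^[N] f = f := by
  classical
  have := Fintype.ofFinite ι
  obtain ⟨N1, hN1, h1⟩ := exists_period hP Finset.univ f
  obtain ⟨N2, hN2, h2⟩ := exists_period hP Finset.univ w
  set N := N1 * N2 with hN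
  have hN0 : 0 < N := Nat.mul_pos hN1 hN2
  have h3 : ∀ b, φ^[N] (f b) = f b := fun b => period_mul (h1 b (Finset.mem_univ b)) N2
  have h4 : ∀ b, φ^[N] (w b) = w b := fun b => by
    rw [hN, mul_comm]
    exact period_mul (h2 b (Finset.mem_univ b)) N1
  let S : Set (ι → k) := {g | ∀ b, φ^[N] (g b) = g b}
  have hS : S.Finite := Set.Finite.pi' fun _ => hfin N hN0
  have hmap : ∀ g ∈ S, γ g ∈ S := by
    intro g hg b
    obtain ⟨b, rfl⟩ := π.surjective b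
    rw [hγ, iter_map_mul, h4, ← iterate_succ_apply, iterate_succ_apply', hg b]
  have hinj : Injective γ := by
    intro g g' h
    funext b
    have h5 := congrFun h (π b)
    rw [hγ, hγ] at h5
    exact φ.injective (mul_left_cancel₀ (hw b) h5)
  have := hS.to_subtype
  let γ' : S → S := fun g => ⟨γ g, hmap g g.2⟩
  have hinj' : Injective γ' := fun g g' h => Subtype.ext (hinj (congrArg Subtype.val h))
  obtain ⟨n, hn, h6⟩ := hinj'.mem_periodicPts ⟨f, h3⟩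
  refine ⟨n, hn, ?_⟩
  have h7 : ∀ m : ℕ, ∀ g : S, ((γ'^[m] g : S) : ι → k) = γ^[m] g := by
    intro m
    induction m with
    | zero => intro g; rfl
    | succ m ih => intro g; rw [iterate_succ_apply, iterate_succ_apply, ih]
  have h8 : γ'^[n] ⟨f, h3⟩ = ⟨f, h3⟩ := h6
  rw [← h7 n ⟨f, h3⟩, h8]

theorem finite_fr {p : ℕ} [Fact p.Prime] [CharP k p] {f : ℕ} (hf : 0 < f) (N : ℕ) (hN : 0 < N) :
    {c : k | (fr k p f)^[N] c = c}.Finite := by
  classical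
  have h2 : 2 ≤ (p ^ f) ^ N :=
    ((Fact.out : p.Prime).two_le.trans (Nat.le_self_pow hf.ne' p)).trans (Nat.le_self_pow hN.ne' _)
  have hne : (Polynomial.X ^ ((p ^ f) ^ N) - Polynomial.X : Polynomial k) ≠ 0 := by
    intro h
    have h3 := congrArg Polynomial.natDegree h
    rw [Polynomial.natDegree_sub_eq_left_of_natDegree_lt (by
      rw [Polynomial.natDegree_X, Polynomial.natDegree_X_pow]; omega), Polynomial.natDegree_X_pow,
      Polynomial.natDegree_zero] at h3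
    omega
  refine (Polynomial.rootSet_finite (Polynomial.X ^ ((p ^ f) ^ N) - Polynomial.X : Polynomial k) k).subset ?_
  intro c hc
  rw [Polynomial.mem_rootSet]
  refine ⟨hne, ?_⟩
  have hc' : (fr k p f)^[N] c = c := hc
  rw [fr_iter] at hc'
  rw [map_sub, map_pow, Polynomial.aeval_X, hc', sub_self]

end per

variable {D : ChevalleyDatum} {l : ℕ} {M : CoxeterMatrix (Fin l)} {hp : IsType D l M}
  {lam : (Fin l → ℤ) →+ ℤ} {i j : ℤ} {r e : ℕ} [Fact r.Prime]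

local notation "𝔽" => AlgebraicClosure (ZMod r)

section


/-- **The semilinear map of a layer.** -/
theorem exists_sem (hs : SL M.toCoxeterSystem hp.isCartan) (he : 0 < e) {α : MulAut ↥(D.group 𝔽)}
    {θ : (Fin l → ℤ) ≃+ (Fin l → ℤ)} (hα : IsFrob r e α)
    (F : Fr M.toCoxeterSystem hp.isCartan (TT D 𝔽) (XX D l 𝔽) α θ) (hlam : ∀ x, lam (θ x) = lam x)
    (hi : 0 < i) : ∃ γ : (Rl hp lam i → 𝔽) →ₛₗ[fr 𝔽 r e] (Rl hp lam i → 𝔽),
    (∀ u ∈ US D l 𝔽 (Lv hp lam i), kap hp lam i (α u) = γ (kap hp lam i u)) ∧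
      ∀ v, ∃ N : ℕ, 0 < N ∧ γ^[N] v = v := by
  classical
  have := finite_Rl (hp := hp) (lam := lam) (i := i)
  have h1 : ∀ b : Rl hp lam i, ∃ u : 𝔽, u ≠ 0 ∧ ∀ c : 𝔽, α (xc hp b.1 c) = xc hp (θ b.1) (u * c ^ r ^ e) := fun b =>
    Cfsg.Agent.H508.Dens.frob_form hp M.toCoxeterSystem hα F b.2.1
  choose w hw hw' using h1
  let π : Equiv.Perm (Rl hp lam i) :=
    { toFun := fun b => ⟨θ b.1, (F.root _).2 b.2.1, by rw [hlam]; exact b.2.2⟩
      invFun := fun b => ⟨θ.symm b.1, (F.root _).1 (by rw [AddEquiv.apply_symm_apply]; exact b.2.1), by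
        rw [← hlam, AddEquiv.apply_symm_apply]; exact b.2.2⟩
      left_inv := fun b => Subtype.ext (AddEquiv.symm_apply_apply _ _)
      right_inv := fun b => Subtype.ext (AddEquiv.apply_symm_apply _ _) }
  let γ : (Rl hp lam i → 𝔽) →ₛₗ[fr 𝔽 r e] (Rl hp lam i → 𝔽) :=
    { toFun := fun f b => w (π.symm b) * fr 𝔽 r e (f (π.symm b))
      map_add' := fun f g => by
        funext b
        simp only [Pi.add_apply, map_add, mul_add]
      map_smul' := fun c f => by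
        funext b
        simp only [Pi.smul_apply, smul_eq_mul, map_mul]
        ring }
  have hγ : ∀ f b, γ f (π b) = w b * fr 𝔽 r e (f b) := by
    intro f b
    show w (π.symm (π b)) * fr 𝔽 r e (f (π.symm (π b))) = _
    rw [Equiv.symm_apply_apply]
  refine ⟨γ, fun u hu => ?_, fun v => periodic_pi (pe_fr (k := 𝔽) (p := r) e) (fun N hN => finite_fr he N hN) π hw hγ v⟩
  funext b
  obtain ⟨b, rfl⟩ := π.surjective b
  rw [hγ, fr_apply]
  exact kap_map hs hi F hlam hu b (π b) rfl (g := fun c => w b * c ^ r ^ e) (hw' b)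

/-- **Lifting of fixed vectors.** -/
theorem exists_lift (hs : SL M.toCoxeterSystem hp.isCartan) (he : 0 < e) {α : MulAut ↥(D.group 𝔽)}
    {θ : (Fin l → ℤ) ≃+ (Fin l → ℤ)} (hα : IsFrob r e α)
    (F : Fr M.toCoxeterSystem hp.isCartan (TT D 𝔽) (XX D l 𝔽) α θ) (hlam : ∀ x, lam (θ x) = lam x)
    (hi : 0 < i) {γ : (Rl hp lam i → 𝔽) →ₛₗ[fr 𝔽 r e] (Rl hp lam i → 𝔽)}
    (hγ : ∀ u ∈ US D l 𝔽 (Lv hp lam i), kap hp lam i (α u) = γ (kap hp lam i u)) {v : Rl hp lam i → 𝔽} (hv : γ v = v) :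
    ∃ u ∈ US D l 𝔽 (Lv hp lam i), α u = u ∧ kap hp lam i u = v := by
  obtain ⟨u, hu, e1⟩ := kap_surj hs hi v
  have hαu : α u ∈ US D l 𝔽 (Lv hp lam i) := (US_map F hlam).2 hu
  have h1 : kap hp lam i (u⁻¹ * α u) = 0 := by
    rw [kap_mul hs hi (inv_mem hu) hαu, kap_inv hs hi hu, hγ u hu, e1, hv, neg_add_cancel]
  have h2 := kap_ker hs hi (mul_mem (inv_mem hu) hαu) h1
  obtain ⟨y, hy, e2⟩ := lang_fr hp M.toCoxeterSystem he hα F (S := Lv hp lam (i + 1)) (fun a ha => ha.1)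
    (fun a ha => ⟨(F.root a).2 ha.1, by rw [hlam]; exact ha.2⟩) h2
  have hy' : y ∈ US D l 𝔽 (Lv hp lam i) := RGD.Sup_mono (Lv_mono (by omega)) hy
  refine ⟨u * y⁻¹, mul_mem hu (inv_mem hy'), ?_, ?_⟩
  · rw [map_mul, map_inv]
    have h3 : α u = u * (y⁻¹ * α y) := by rw [← e2, mul_inv_cancel_left]
    rw [h3]
    group
  · rw [kap_mul hs hi hu (inv_mem hy'), kap_inv hs hi hy', kap_of_gt hs hi hy, neg_zero, add_zero, e1]

/-- **The fixed points of the top layer are products of commutators of fixed points.** -/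
theorem mem_of_comm (hs : SL M.toCoxeterSystem hp.isCartan) (he : 0 < e) {α : MulAut ↥(D.group 𝔽)}
    {θ : (Fin l → ℤ) ≃+ (Fin l → ℤ)} (hα : IsFrob r e α)
    (F : Fr M.toCoxeterSystem hp.isCartan (TT D 𝔽) (XX D l 𝔽) α θ) (hlam : ∀ x, lam (θ x) = lam x)
    (hi : 0 < i) (hj : 0 < j) (htop : ∀ b, IsRoot M.toCoxeterSystem hp.isCartan b → lam b ≤ i + j)
    (hdec : ∀ b, IsRoot M.toCoxeterSystem hp.isCartan b → lam b = i + j →
      ∃ x y, IsRoot M.toCoxeterSystem hp.isCartan x ∧ IsRoot M.toCoxeterSystem hp.isCartan y ∧ lam x = i ∧ lam y = j ∧ x + y = b)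
    (K : Subgroup ↥(D.group 𝔽)) (hK : ∀ u ∈ US D l 𝔽 (Lv hp lam i), ∀ v ∈ US D l 𝔽 (Lv hp lam j), α u = u → α v = v →
      ⁅u, v⁆ ∈ K) {n : ↥(D.group 𝔽)} (hn : n ∈ US D l 𝔽 (Lv hp lam (i + j))) (hαn : α n = n) : n ∈ K := by
  have hij : 0 < i + j := by omega
  obtain ⟨B, hB⟩ := exists_form (hp := hp) (r := r) hs hi hj htop
  obtain ⟨γ1, h1, p1⟩ := exists_sem (hp := hp) hs he hα F hlam hi
  obtain ⟨γ2, h2, p2⟩ := exists_sem (hp := hp) hs he hα F hlam hj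
  obtain ⟨γ3, h3, -⟩ := exists_sem (hp := hp) hs he hα F hlam hij
  have hBe : ∀ v w, γ3 (B v w) = B (γ1 v) (γ2 w) := by
    intro v w
    obtain ⟨a, ha, rfl⟩ := kap_surj hs hi v
    obtain ⟨b, hb, rfl⟩ := kap_surj hs hj w
    have ha' : α a ∈ US D l 𝔽 (Lv hp lam i) := (US_map F hlam).2 ha
    have hb' : α b ∈ US D l 𝔽 (Lv hp lam j) := (US_map F hlam).2 hb
    rw [← hB a ha b hb, ← h1 a ha, ← h2 b hb, ← hB _ ha' _ hb', ← h3 _ (comm_Lv hi hj ha hb), map_commutatorElement]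
  have hfix : γ3 (kap hp lam (i + j) n) = kap hp lam (i + j) n := by rw [← h3 n hn, hαn]
  have h4 := form (ex_fr (k := 𝔽) (p := r) he) (pe_fr (k := 𝔽) (p := r) e) γ1 γ2 γ3 p1 p2 B hBe hfix
    (mem_span_form hs hi hj hdec hB _)
  have key : ∀ z ∈ AddSubgroup.closure {x | ∃ v w, γ1 v = v ∧ γ2 w = w ∧ B v w = x},
      ∃ k ∈ K, k ∈ US D l 𝔽 (Lv hp lam (i + j)) ∧ kap hp lam (i + j) k = z := by
    intro z hz
    induction hz using AddSubgroup.closure_induction with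
    | mem z hz =>
      obtain ⟨v, w, hv, hw, rfl⟩ := hz
      obtain ⟨a, ha, hαa, rfl⟩ := exists_lift hs he hα F hlam hi h1 hv
      obtain ⟨b, hb, hαb, rfl⟩ := exists_lift hs he hα F hlam hj h2 hw
      exact ⟨⁅a, b⁆, hK a ha b hb hαa hαb, comm_Lv hi hj ha hb, hB a ha b hb⟩
    | zero => exact ⟨1, one_mem _, one_mem _, kap_one hs hij⟩
    | add z z' _ _ ih ih' =>
      obtain ⟨k, hk, hk', rfl⟩ := ih
      obtain ⟨k', hkk, hkk', rfl⟩ := ih'
      exact ⟨k * k', mul_mem hk hkk, mul_mem hk' hkk', kap_mul hs hij hk' hkk'⟩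
    | neg z _ ih =>
      obtain ⟨k, hk, hk', rfl⟩ := ih
      exact ⟨k⁻¹, inv_mem hk, inv_mem hk', kap_inv hs hij hk'⟩
  obtain ⟨k, hk, hk', e1⟩ := key _ h4
  have h5 : k⁻¹ * n ∈ US D l 𝔽 (Lv hp lam (i + j + 1)) := by
    refine kap_ker hs hij (mul_mem (inv_mem hk') hn) ?_
    rw [kap_mul hs hij (inv_mem hk') hn, kap_inv hs hij hk', e1, neg_add_cancel]
  have h6 := US_top htop (by omega : i + j < i + j + 1) h5
  rw [inv_mul_eq_one] at h6
  rwa [← h6]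

end

/-! ### group theory -/

section grp

open Cfsg.Agent.H380.RC

variable {G : Type*} [Group G] {U N : Subgroup G} {y : G}

theorem mod_surj [Finite U] (hNU : N ≤ U) (hcen : ∀ u ∈ U, ∀ n ∈ N, u * n = n * u) (hyU : ∀ u ∈ U, y * u * y⁻¹ ∈ U)
    (hyN : ∀ u ∈ N, y * u * y⁻¹ ∈ N) (hfix : ∀ u ∈ U, y * u * y⁻¹ * u⁻¹ ∈ N → u ∈ N) {u : G} (hu : u ∈ U) :
    ∃ k, (∃ a ∈ U, k = a * y * a⁻¹ * y⁻¹) ∧ ∃ n ∈ N, u = k * n := by
  -- the relation
  let s : Setoid U :=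
    { r := fun a b => (a : G)⁻¹ * b ∈ N
      iseqv := ⟨fun a => by rw [inv_mul_cancel]; exact one_mem _, fun {a b} h => by
        have := inv_mem h
        rwa [mul_inv_rev, inv_inv] at this, fun {a b c} h h' => by
        have := mul_mem h h'
        have e : (a : G)⁻¹ * b * ((b : G)⁻¹ * c) = (a : G)⁻¹ * c := by group
        rwa [e] at this⟩ }
  let g : U → U := fun a => ⟨(a : G) * (y * (a : G)⁻¹ * y⁻¹), mul_mem a.2 (hyU _ (inv_mem a.2))⟩
  have hg : ∀ a b : U, s.r a b ↔ s.r (g a) (g b) := by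
    intro a b
    show (a : G)⁻¹ * b ∈ N ↔ ((a : G) * (y * (a : G)⁻¹ * y⁻¹))⁻¹ * ((b : G) * (y * (b : G)⁻¹ * y⁻¹)) ∈ N
    have hyb : y * (b : G) * y⁻¹ ∈ U := hyU _ b.2
    constructor
    · intro h
      set n := (a : G)⁻¹ * b with hn
      have hb : (b : G) = a * n := by rw [hn]; group
      have h1 : y * n⁻¹ * y⁻¹ ∈ N := hyN _ (inv_mem h)
      have h2 : y * (a : G)⁻¹ * y⁻¹ ∈ U := hyU _ (inv_mem a.2)
      have h3 : ((a : G) * (y * (a : G)⁻¹ * y⁻¹))⁻¹ * ((b : G) * (y * (b : G)⁻¹ * y⁻¹)) =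
          (y * (a : G)⁻¹ * y⁻¹)⁻¹ * (n * (y * n⁻¹ * y⁻¹)) * (y * (a : G)⁻¹ * y⁻¹) := by
        rw [hb]; group
      rw [h3]
      have h4 := hcen _ (inv_mem h2) _ (mul_mem h h1)
      rw [h4, inv_mul_cancel_right]
      exact mul_mem h h1
    · intro h
      set n := ((a : G) * (y * (a : G)⁻¹ * y⁻¹))⁻¹ * ((b : G) * (y * (b : G)⁻¹ * y⁻¹)) with hn
      have h1 : (a : G)⁻¹ * b = (y * (a : G)⁻¹ * y⁻¹) * n * (y * (b : G) * y⁻¹) := by rw [hn]; group
      apply hfix _ (mul_mem (inv_mem a.2) b.2)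
      have h2 := hcen _ hyb _ h
      have h3 : y * ((a : G)⁻¹ * b) * y⁻¹ * n = (a : G)⁻¹ * b := by
        calc y * ((a : G)⁻¹ * b) * y⁻¹ * n = (y * (a : G)⁻¹ * y⁻¹) * ((y * (b : G) * y⁻¹) * n) := by group
          _ = (y * (a : G)⁻¹ * y⁻¹) * (n * (y * (b : G) * y⁻¹)) := by rw [h2]
          _ = (y * (a : G)⁻¹ * y⁻¹) * n * (y * (b : G) * y⁻¹) := (mul_assoc _ _ _).symm
          _ = (a : G)⁻¹ * b := h1.symm
      have h4 := eq_mul_inv_of_mul_eq h3
      rw [h4, hcen _ (mul_mem (inv_mem a.2) b.2) _ (inv_mem h), mul_inv_cancel_right]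
      exact inv_mem h
  let g' : Quotient s → Quotient s := Quotient.map' g fun a b h => (hg a b).1 h
  have hinj : Function.Injective g' := by
    intro a b
    induction a using Quotient.inductionOn'
    induction b using Quotient.inductionOn'
    intro h
    exact Quotient.sound' ((hg _ _).2 (Quotient.exact' h))
  obtain ⟨a, ha⟩ := (Finite.injective_iff_surjective.1 hinj) (Quotient.mk'' (⟨u, hu⟩ : U))
  induction a using Quotient.inductionOn' with | h a => ?_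
  have h1 : ((a : G) * (y * (a : G)⁻¹ * y⁻¹))⁻¹ * u ∈ N := Quotient.exact' ha
  exact ⟨_, ⟨a, a.2, rfl⟩, _, h1, by group⟩

/-- **`U ≤ [U, y]`** if `y` has fixed points only on the central subgroup `N ≤ [U, U]`. -/
theorem le_cmm [Finite U] (hNU : N ≤ U) (hcen : ∀ u ∈ U, ∀ n ∈ N, u * n = n * u) (hyU : ∀ u ∈ U, y * u * y⁻¹ ∈ U)
    (hyN : ∀ u ∈ N, y * u * y⁻¹ ∈ N) (hfix : ∀ u ∈ U, y * u * y⁻¹ * u⁻¹ ∈ N → u ∈ N)
    (hN : ∀ K : Subgroup G, (∀ u ∈ U, ∀ v ∈ U, ⁅u, v⁆ ∈ K) → N ≤ K) : U ≤ cmm U y := by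
  have key : ∀ u ∈ U, ∃ k ∈ cmm U y, ∃ n ∈ N, u = k * n := by
    intro u hu
    obtain ⟨k, ⟨a, ha, rfl⟩, n, hn, e⟩ := mod_surj hNU hcen hyU hyN hfix hu
    exact ⟨_, mem_cmm ha, n, hn, e⟩
  have h1 : N ≤ cmm U y := by
    apply hN
    intro u hu v hv
    obtain ⟨k, hk, n, hn, rfl⟩ := key u hu
    obtain ⟨k', hk', n', hn', rfl⟩ := key v hv
    have hkU : k ∈ U := by
      have := mul_mem hu (inv_mem (hNU hn))
      rwa [mul_inv_cancel_right] at this
    have h2 : ⁅k * n, k' * n'⁆ = ⁅k, k'⁆ := by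
      have hkU' : k' ∈ U := by
        have := mul_mem hv (inv_mem (hNU hn'))
        rwa [mul_inv_cancel_right] at this
      have e1 := hcen _ (mul_mem hkU' (hNU hn')) _ hn
      have e2 := hcen _ hkU _ hn'
      rw [commutatorElement_def, commutatorElement_def]
      calc k * n * (k' * n') * (k * n)⁻¹ * (k' * n')⁻¹ = k * (n * (k' * n')) * n⁻¹ * k⁻¹ * (k' * n')⁻¹ := by group
        _ = k * (k' * n' * n) * n⁻¹ * k⁻¹ * (k' * n')⁻¹ := by rw [e1]
        _ = k * k' * (n' * k⁻¹) * n'⁻¹ * k'⁻¹ := by group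
        _ = k * k' * (k⁻¹ * n') * n'⁻¹ * k'⁻¹ := by rw [hcen _ (inv_mem hkU) _ hn']
        _ = k * k' * k⁻¹ * k'⁻¹ := by group
    rw [h2, commutatorElement_def]
    exact cmm_comm hkU hk'
  intro u hu
  obtain ⟨k, hk, n, hn, rfl⟩ := key u hu
  exact mul_mem hk (h1 hn)

end grp

open Cfsg.Agent.H380.RC

/-- **`U ≤ [U, y]`** if `y` has no fixed points on the layers below the top layer. -/
theorem fix_le_cmm (hs : SL M.toCoxeterSystem hp.isCartan) (he : 0 < e) {α : MulAut ↥(D.group 𝔽)}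
    {θ : (Fin l → ℤ) ≃+ (Fin l → ℤ)} (hα : IsFrob r e α)
    (F : Fr M.toCoxeterSystem hp.isCartan (TT D 𝔽) (XX D l 𝔽) α θ) (hlam : ∀ x, lam (θ x) = lam x)
    (hi : 0 < i) (hj : 0 < j) (htop : ∀ b, IsRoot M.toCoxeterSystem hp.isCartan b → lam b ≤ i + j)
    (hdec : ∀ b, IsRoot M.toCoxeterSystem hp.isCartan b → lam b = i + j →
      ∃ x y, IsRoot M.toCoxeterSystem hp.isCartan x ∧ IsRoot M.toCoxeterSystem hp.isCartan y ∧ lam x = i ∧ lam y = j ∧ x + y = b)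
    {U : Subgroup ↥(D.group 𝔽)} (hU : ∀ u, u ∈ U ↔ u ∈ US D l 𝔽 (Lv hp lam 1) ∧ α u = u) [Finite ↥U]
    {y : ↥(D.group 𝔽)} (hy : y ∈ TT D 𝔽) (hαy : α y = y)
    (hS : ∀ b, IsRoot M.toCoxeterSystem hp.isCartan b → 0 < lam b → lam b < i + j → ch hp b y ≠ 1) : U ≤ cmm U y := by
  have hij : 0 < i + j := by omega
  -- the torus normalises the layers
  have hconj : ∀ (m : ℤ) {u : ↥(D.group 𝔽)}, u ∈ US D l 𝔽 (Lv hp lam m) → y * u * y⁻¹ ∈ US D l 𝔽 (Lv hp lam m) := by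
    intro m u hu
    have key : US D l 𝔽 (Lv hp lam m) ≤ (US D l 𝔽 (Lv hp lam m)).comap (MulAut.conj y).toMonoidHom := by
      refine RGD.Sup_le fun a ha g hg => ?_
      change y * g * y⁻¹ ∈ US D l 𝔽 (Lv hp lam m)
      obtain ⟨c, rfl⟩ := ((coord hp ha.1).mem _).1 hg
      rw [(coord hp ha.1).act y hy]
      exact RGD.le_Sup (S := Lv hp lam m) ha (xc_mem hp ha.1 _)
    exact key hu
  have hfixy : ∀ {u : ↥(D.group 𝔽)}, α u = u → α (y * u * y⁻¹) = y * u * y⁻¹ := fun {u} h => by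
    rw [map_mul, map_mul, map_inv, hαy, h]
  let N : Subgroup ↥(D.group 𝔽) := U ⊓ US D l 𝔽 (Lv hp lam (i + j))
  refine le_cmm (N := N) inf_le_left (fun u hu n hn => top_central hij htop ((hU u).1 hu).1 hn.2) ?_ ?_ ?_ ?_
  · intro u hu
    obtain ⟨h1, h2⟩ := (hU u).1 hu
    exact (hU _).2 ⟨hconj 1 h1, hfixy h2⟩
  · intro u hu
    obtain ⟨h1, h2⟩ := (hU u).1 hu.1
    exact ⟨(hU _).2 ⟨hconj 1 h1, hfixy h2⟩, hconj _ hu.2⟩
  · intro u hu hw
    refine ⟨hu, ?_⟩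
    have key : ∀ m : ℕ, (m : ℤ) + 1 ≤ i + j → u ∈ US D l 𝔽 (Lv hp lam ((m : ℤ) + 1)) := by
      intro m
      induction m with
      | zero =>
        intro _
        have := ((hU u).1 hu).1
        rwa [Nat.cast_zero, zero_add]
      | succ m ih =>
        intro hm
        push_cast at hm
        have h1 := ih (by omega)
        have hm0 : (0 : ℤ) < (m : ℤ) + 1 := by omega
        push_cast
        refine kap_ker hs hm0 h1 ?_
        have h2 : y * u * y⁻¹ * u⁻¹ ∈ US D l 𝔽 (Lv hp lam ((m : ℤ) + 1 + 1)) := RGD.Sup_mono (Lv_mono (by omega)) hw.2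
        have h3 : kap hp lam ((m : ℤ) + 1) (y * u * y⁻¹) = kap hp lam ((m : ℤ) + 1) u := by
          have h4 : y * u * y⁻¹ = (y * u * y⁻¹ * u⁻¹) * u := by group
          rw [h4, kap_mul hs hm0 (RGD.Sup_mono (Lv_mono (by omega)) h2) h1, kap_of_gt hs hm0 h2, zero_add]
        funext b
        have h5 := congrFun h3 b
        rw [kap_tor hs hm0 hy h1 b] at h5
        have h6 := hS b.1 b.2.1 (by rw [b.2.2]; exact hm0) (by rw [b.2.2]; omega)
        have h7 : (ch hp b.1 y - 1) * kap hp lam ((m : ℤ) + 1) u b = 0 := by rw [sub_mul, h5, one_mul, sub_self]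
        exact (mul_eq_zero.1 h7).resolve_left (sub_ne_zero.2 h6)
    obtain ⟨m, hm⟩ := Int.eq_ofNat_of_zero_le (by omega : 0 ≤ i + j - 1)
    have h1 := key m (by omega)
    rwa [show (m : ℤ) + 1 = i + j by omega] at h1
  · intro K hK n hn
    obtain ⟨h1, h2⟩ := hn
    exact mem_of_comm hs he hα F hlam hi hj htop hdec K
      (fun u hu v hv hαu hαv => hK u ((hU u).2 ⟨US_le_one hi hu, hαu⟩) v ((hU v).2 ⟨US_le_one hj hv, hαv⟩)) h2
      ((hU n).1 h1).2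

end Cfsg.Agent.H24.MX
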