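import Cfsg.Agent.H508.Dens.Main
import Cfsg.Agent.H46.Gen.A2Hom
import Cfsg.Agent.KFacts.RgdSL
import Cfsg.Agent.KFacts.RgdInd

/-!
# S3509 MIX, box M4t: the layers of a functional (helper24)

`lam` a functional on the root lattice, `Lv lam i` the roots with `i ≤ lam`, simply laced, `0 < i`:

* `kap lam i : D.group k → (roots with lam = i) → k` : the coordinates on `Sup (Lv lam i)`, additive (`kap_mul`), with kernel
  `Sup (Lv lam (i + 1))` (`kap_ker`), surjective (`kap_surj`);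
* `kap_tor`, `kap_map` : the torus, semilinear automorphisms;
* `kap_comm` : `kap (i + j) ⁅u, v⁆ = B (kap i u) (kap j v)`, `B` bilinear, if `lam ≤ i + j` on the roots.
-/

set_option autoImplicit false
set_option linter.unusedSectionVars false

namespace Cfsg.Agent.H24.MX

open CoxeterSystem Cfsg Cfsg.Lie Cfsg.Lie.ChevalleyDatum
open Cfsg.Agent.ChevalleyStructure Cfsg.Agent.ChevalleyStructure.Elts Cfsg.Agent.ChevalleyStructure.CoxeterGeom
  Cfsg.Agent.ChevalleyStructure.CoxeterGeomTypes Cfsg.Agent.ChevalleyStructure.NPerm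
open Cfsg.Agent.Tits.Roots Cfsg.Agent.Tits.Core Cfsg.Agent.Nodes.Reps Cfsg.Agent.Nodes.BNOf
  Cfsg.Agent.Nodes.RGDChev Cfsg.Agent.Nodes.Coroot Cfsg.Agent.Nodes.Unique Cfsg.Agent.Nodes.OppDec
open Cfsg.Agent.KFacts.RgdField Cfsg.Agent.KFacts.RgdChevCoord Cfsg.Agent.KFacts.RgdSL
open Cfsg.Agent.BpExc.Tow Cfsg.Agent.BpExc.TowChev Cfsg.Agent.BpExc.Fr Cfsg.Agent.LangThm
open Cfsg.Agent.H46.Gen (Rt Pr NN)
open scoped commutatorElement

universe u

variable {D : ChevalleyDatum} {l : ℕ} {M : CoxeterMatrix (Fin l)} (hp : IsType D l M)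

/-- the roots of level at least `i` -/
def Lv (lam : (Fin l → ℤ) →+ ℤ) (i : ℤ) : Set (Fin l → ℤ) :=
  {a | IsRoot M.toCoxeterSystem hp.isCartan a ∧ i ≤ lam a}

/-- `Lv (i + 1) ⊆ S ⊆ Lv i`, `0 < i` -/
structure Bt (lam : (Fin l → ℤ) →+ ℤ) (i : ℤ) (S : Set (Fin l → ℤ)) : Prop where
  pos : 0 < i
  le : S ⊆ Lv hp lam i
  ge : Lv hp lam (i + 1) ⊆ S

variable {hp} {lam : (Fin l → ℤ) →+ ℤ} {i : ℤ} {S S' : Set (Fin l → ℤ)}

theorem Lv_mono {j : ℤ} (h : i ≤ j) : Lv hp lam j ⊆ Lv hp lam i := fun _ hx => ⟨hx.1, h.trans hx.2⟩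

theorem bt_Lv (hi : 0 < i) : Bt hp lam i (Lv hp lam i) := ⟨hi, le_rfl, Lv_mono (by omega)⟩

theorem bt_Lv' (hi : 0 < i) : Bt hp lam i (Lv hp lam (i + 1)) := ⟨hi, Lv_mono (by omega), le_rfl⟩

theorem Bt.diff (B : Bt hp lam i S) {a : Fin l → ℤ} (ha : lam a = i) : Bt hp lam i (S \ {a}) := by
  refine ⟨B.pos, Set.sdiff_subset.trans B.le, fun x hx => ⟨B.ge hx, ?_⟩⟩
  rintro rfl
  have := hx.2
  omega

theorem Bt.sub (B : Bt hp lam i S) {x : Fin l → ℤ} (hx : x ∈ S) : IsRoot M.toCoxeterSystem hp.isCartan x ∧ 0 < lam x :=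
  ⟨(B.le hx).1, lt_of_lt_of_le B.pos (B.le hx).2⟩

theorem Bt.closed (hs : SL M.toCoxeterSystem hp.isCartan) (B : Bt hp lam i S) :
    Closed M.toCoxeterSystem hp.isCartan S := by
  have := finite_W hp M.toCoxeterSystem
  intro x hx y hy z hz
  by_cases hxy : x = y
  · subst hxy
    rw [btwn_self (B.le hx).1 hz]
    exact hx
  · have h0 := (B.sub hx).2
    have h1 := (B.sub hy).2
    have h2 : x ≠ -y := by
      rintro rfl
      rw [map_neg] at h0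
      omega
    have h3 := (hs.btwn (B.sub hx).1 (B.sub hy).1 hxy h2 hz).2
    refine B.ge ⟨hz.1, ?_⟩
    rw [h3, map_add]
    have := (B.le hx).2
    omega

variable {r : ℕ} [Fact r.Prime]

local notation "𝔽" => AlgebraicClosure (ZMod r)

/-- the group generated by the root groups of `S` -/
abbrev US (D : ChevalleyDatum) (l : ℕ) (k : Type u) [Field k] (S : Set (Fin l → ℤ)) : Subgroup ↥(D.group k) :=
  RGD.Sup (XX D l k) S

variable (hs : SL M.toCoxeterSystem hp.isCartan)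

include hs

theorem mem_inter {f : (Fin l → ℤ) →+ ℤ} (hS : ∀ x ∈ S, IsRoot M.toCoxeterSystem hp.isCartan x ∧ 0 < f x)
    (hS' : ∀ x ∈ S', IsRoot M.toCoxeterSystem hp.isCartan x ∧ 0 < f x) (hc : Closed M.toCoxeterSystem hp.isCartan S)
    (hc' : Closed M.toCoxeterSystem hp.isCartan S') {y : ↥(D.group 𝔽)} (h1 : y ∈ US D l 𝔽 S) (h2 : y ∈ US D l 𝔽 S') :
    y ∈ US D l 𝔽 (S ∩ S') := by
  have := finite_W hp M.toCoxeterSystem
  have H := tow (k := 𝔽) hp M.toCoxeterSystem (locFin_of_isAlgebraic r _) r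
  have hXL := XL_eq (k := 𝔽) hp (locFin_of_isAlgebraic r _)
  unfold US at h1 h2 ⊢
  rw [← hXL] at h1 h2 ⊢
  obtain ⟨j1, h3⟩ := H.mem_Sup.1 h1
  obtain ⟨j2, h4⟩ := H.mem_Sup.1 h2
  obtain ⟨j, h5, h6⟩ := H.dir j1 j2
  have h7 := Cfsg.Agent.KFacts.RgdInd.inf_eq_of_pos (H.rgd j) f hS hS' hc hc'
  refine H.mem_Sup.2 ⟨j, ?_⟩
  rw [← h7]
  exact Subgroup.mem_inf.2 ⟨H.mono_Sup _ h5 h3, H.mono_Sup _ h6 h4⟩

theorem Bt.mem_inter (B : Bt hp lam i S) (B' : Bt hp lam i S') {y : ↥(D.group 𝔽)} (h1 : y ∈ US D l 𝔽 S)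
    (h2 : y ∈ US D l 𝔽 S') : y ∈ US D l 𝔽 (S ∩ S') :=
  MX.mem_inter (hp := hp) hs (f := lam) (fun _ hx => B.sub hx) (fun _ hx => B'.sub hx) (B.closed hs) (B'.closed hs) h1 h2

theorem Bt.x_inf (B : Bt hp lam i S) {b : Fin l → ℤ} (hb : IsRoot M.toCoxeterSystem hp.isCartan b) (h0 : 0 < lam b)
    (hbS : b ∉ S) {y : ↥(D.group 𝔽)} (h1 : y ∈ XX D l 𝔽 b) (h2 : y ∈ US D l 𝔽 S) : y = 1 := by
  have := finite_W hp M.toCoxeterSystem
  have h3 := MX.mem_inter (hp := hp) hs (f := lam) (S := {b}) (S' := S) (fun x hx => by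
      rw [Set.mem_singleton_iff] at hx
      subst hx
      exact ⟨hb, h0⟩) (fun _ hx => B.sub hx) (Cfsg.Agent.KFacts.RgdInd.closed_singleton (h := hp.isCartan) hb) (B.closed hs)
    (RGD.le_Sup (Set.mem_singleton b) h1) h2
  rw [Set.singleton_inter_eq_empty.2 hbS] at h3
  unfold US at h3
  rw [Sup_empty] at h3
  exact Subgroup.mem_bot.1 h3

omit hs

variable (hp) in
theorem xx_comm {x : Fin l → ℤ} (hx : IsRoot M.toCoxeterSystem hp.isCartan x) {a b : ↥(D.group 𝔽)}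
    (ha : a ∈ XX D l 𝔽 x) (hb : b ∈ XX D l 𝔽 x) : a * b = b * a := by
  have C := (coordsL (k := 𝔽) hp M.toCoxeterSystem (locFin_of_isAlgebraic r _) r).coord x hx
  obtain ⟨s, rfl⟩ := (C.mem _).1 ha
  obtain ⟨t, rfl⟩ := (C.mem _).1 hb
  rw [← C.add, ← C.add, add_comm]

/-- **The groups between two layers are normal.** -/
theorem Bt.le_norm (B : Bt hp lam i S) :
    US D l 𝔽 (Lv hp lam 1) ≤ Subgroup.normalizer (US D l 𝔽 S : Set ↥(D.group 𝔽)) := by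
  have key : ∀ c ∈ Lv hp lam 1, ∀ x ∈ XX D l 𝔽 c, ∀ g ∈ US D l 𝔽 S, x * g * x⁻¹ ∈ US D l 𝔽 S := by
    intro c hc x hx
    have h1 : US D l 𝔽 S ≤ (US D l 𝔽 S).comap (MulAut.conj x).toMonoidHom := by
      refine RGD.Sup_le fun b hb g hg => ?_
      change x * g * x⁻¹ ∈ US D l 𝔽 S
      have h3 : x * g * x⁻¹ = ⁅x, g⁆ * g := by rw [commutatorElement_def]; group
      rw [h3]
      refine mul_mem ?_ (RGD.le_Sup hb hg)
      have hc1 := hc.2
      have hb1 := B.sub hb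
      by_cases hcb : c = b
      · subst hcb
        rw [commutatorElement_eq_one_iff_mul_comm.2 (xx_comm hp hb1.1 hx hg)]
        exact one_mem _
      · have h4 : c ≠ -b := by
          rintro rfl
          rw [map_neg] at hc1
          omega
        have h5 := Cfsg.Agent.H508.Dens.comm_mem_int hp M.toCoxeterSystem hc.1 hb1.1 hcb h4 hx hg
        refine RGD.Sup_mono ?_ h5
        rintro z ⟨hz, m, n, hm, hn, rfl⟩
        refine B.ge ⟨hz, ?_⟩
        rw [map_add, map_zsmul, map_zsmul, smul_eq_mul, smul_eq_mul]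
        have h6 := (B.le hb).2
        have h7 := B.pos
        nlinarith
    exact fun g hg => h1 hg
  refine RGD.Sup_le fun c hc x hx => ?_
  rw [Subgroup.mem_normalizer_iff]
  intro g
  refine ⟨fun hg => key c hc x hx g hg, fun hg => ?_⟩
  have h1 := key c hc x⁻¹ (inv_mem hx) _ hg
  have h2 : x⁻¹ * (x * g * x⁻¹) * x⁻¹⁻¹ = g := by group
  rwa [h2] at h1

theorem Bt.conj (B : Bt hp lam i S) {u s : ↥(D.group 𝔽)} (hu : u ∈ US D l 𝔽 (Lv hp lam 1)) (h : s ∈ US D l 𝔽 S) :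
    u * s * u⁻¹ ∈ US D l 𝔽 S :=
  (Subgroup.mem_normalizer_iff.1 (B.le_norm hu) s).1 h

theorem Bt.conj' (B : Bt hp lam i S) {u s : ↥(D.group 𝔽)} (hu : u ∈ US D l 𝔽 (Lv hp lam 1)) (h : s ∈ US D l 𝔽 S) :
    u⁻¹ * s * u ∈ US D l 𝔽 S := by
  have := B.conj (inv_mem hu) h
  rwa [inv_inv] at this

theorem US_le_one (hi : 0 < i) : US D l 𝔽 (Lv hp lam i) ≤ US D l 𝔽 (Lv hp lam 1) := RGD.Sup_mono (Lv_mono (by omega))

/-! ### the coordinates -/

section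

variable (hp)

/-- the roots of level `i` -/
abbrev Rl (lam : (Fin l → ℤ) →+ ℤ) (i : ℤ) : Type := {b : Fin l → ℤ // IsRoot M.toCoxeterSystem hp.isCartan b ∧ lam b = i}

/-- `c` is the coordinate of `u` at `b` -/
def Kp (lam : (Fin l → ℤ) →+ ℤ) (i : ℤ) (b : Fin l → ℤ) (c : 𝔽) (u : ↥(D.group 𝔽)) : Prop :=
  ∃ s ∈ US D l 𝔽 (Lv hp lam i \ {b}), u = xc hp b c * s

open Classical in
/-- the coordinates -/
noncomputable def kap (lam : (Fin l → ℤ) →+ ℤ) (i : ℤ) (u : ↥(D.group 𝔽)) : Rl hp lam i → 𝔽 := fun b =>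
  if h : ∃ c, Kp hp lam i b.1 c u then h.choose else 0

end

variable (hp) in
theorem coord {x : Fin l → ℤ} (hx : IsRoot M.toCoxeterSystem hp.isCartan x) :
    Coord (TT D 𝔽) (XX D l 𝔽 x) (xc hp x) (ch hp x) :=
  (coordsL (k := 𝔽) hp M.toCoxeterSystem (locFin_of_isAlgebraic r _) r).coord x hx

variable (hp) in
theorem xc_mem {x : Fin l → ℤ} (hx : IsRoot M.toCoxeterSystem hp.isCartan x) (c : 𝔽) : xc hp x c ∈ XX D l 𝔽 x :=
  ((coord hp hx).mem _).2 ⟨c, rfl⟩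

variable (hp) in
theorem xc_neg {x : Fin l → ℤ} (hx : IsRoot M.toCoxeterSystem hp.isCartan x) (c : 𝔽) : xc hp x (-c) = (xc hp x c)⁻¹ := by
  rw [eq_inv_iff_mul_eq_one, ← (coord hp hx).add, neg_add_cancel, (coord hp hx).zero]

theorem Kp.eq {b : Fin l → ℤ} {c c' : 𝔽} {u : ↥(D.group 𝔽)} (hs : SL M.toCoxeterSystem hp.isCartan) (hi : 0 < i)
    (hb : IsRoot M.toCoxeterSystem hp.isCartan b) (hbi : lam b = i)
    (h : Kp hp lam i b c u) (h' : Kp hp lam i b c' u) : c = c' := by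
  obtain ⟨s, hs1, e⟩ := h
  obtain ⟨s', hs1', e'⟩ := h'
  have h1 : (xc hp b c')⁻¹ * xc hp b c = s' * s⁻¹ := by
    rw [inv_mul_eq_iff_eq_mul, ← mul_assoc, ← e', e, mul_inv_cancel_right]
  have h2 := ((bt_Lv hi).diff hbi).x_inf hs hb (by rw [hbi]; exact hi) (fun h => h.2 rfl)
    (mul_mem (inv_mem (xc_mem hp hb c')) (xc_mem hp hb c)) (by rw [h1]; exact mul_mem hs1' (inv_mem hs1))
  rw [inv_mul_eq_one] at h2
  exact (coord hp hb).inj h2.symm

theorem Kp.exists {b : Fin l → ℤ} {u : ↥(D.group 𝔽)} (hi : 0 < i)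
    (hb : IsRoot M.toCoxeterSystem hp.isCartan b) (hbi : lam b = i) (hu : u ∈ US D l 𝔽 (Lv hp lam i)) :
    ∃ c, Kp hp lam i b c u := by
  have hbL : b ∈ Lv hp lam i := ⟨hb, hbi.ge⟩
  have hn : XX D l 𝔽 b ≤ Subgroup.normalizer (US D l 𝔽 (Lv hp lam i \ {b}) : Set ↥(D.group 𝔽)) :=
    le_trans (RGD.le_Sup (S := Lv hp lam 1) (Lv_mono (by omega) hbL)) ((bt_Lv hi).diff hbi).le_norm
  have h1 : u ∈ ((XX D l 𝔽 b ⊔ US D l 𝔽 (Lv hp lam i \ {b}) : Subgroup _) : Set ↥(D.group 𝔽)) := by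
    refine (?_ : US D l 𝔽 (Lv hp lam i) ≤ _) hu
    refine RGD.Sup_le fun z hz => ?_
    by_cases hz0 : z = b
    · subst hz0; exact le_sup_left
    · exact le_trans (RGD.le_Sup (S := Lv hp lam i \ {b}) ⟨hz, hz0⟩) le_sup_right
  rw [Subgroup.coe_mul_of_left_le_normalizer_right _ _ hn, Set.mem_mul] at h1
  obtain ⟨x, hx, s, hsm, e⟩ := h1
  obtain ⟨c, rfl⟩ := ((coord hp hb).mem _).1 hx
  exact ⟨c, s, hsm, e.symm⟩

section

variable (hs : SL M.toCoxeterSystem hp.isCartan) (hi : 0 < i)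

include hs hi

theorem kap_eq {b : Rl hp lam i} {c : 𝔽} {u : ↥(D.group 𝔽)} (h : Kp hp lam i b.1 c u) : kap hp lam i u b = c := by
  have h1 : ∃ c, Kp hp lam i b.1 c u := ⟨c, h⟩
  unfold kap
  rw [dif_pos h1]
  exact h1.choose_spec.eq hs hi b.2.1 b.2.2 h

omit hs in
theorem kap_spec {u : ↥(D.group 𝔽)} (hu : u ∈ US D l 𝔽 (Lv hp lam i)) (b : Rl hp lam i) :
    Kp hp lam i b.1 (kap hp lam i u b) u := by
  have h1 := Kp.exists hi b.2.1 b.2.2 hu
  unfold kap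
  rw [dif_pos h1]
  exact h1.choose_spec

theorem kap_mul {u v : ↥(D.group 𝔽)} (hu : u ∈ US D l 𝔽 (Lv hp lam i)) (hv : v ∈ US D l 𝔽 (Lv hp lam i)) :
    kap hp lam i (u * v) = kap hp lam i u + kap hp lam i v := by
  funext b
  obtain ⟨s, h1, e1⟩ := kap_spec hi hu b
  obtain ⟨t, h2, e2⟩ := kap_spec hi hv b
  rw [Pi.add_apply]
  refine kap_eq hs hi ⟨(xc hp b.1 (kap hp lam i v b))⁻¹ * s * xc hp b.1 (kap hp lam i v b) * t, ?_, ?_⟩
  · refine mul_mem (((bt_Lv hi).diff b.2.2).conj' ?_ h1) h2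
    exact RGD.le_Sup (S := Lv hp lam 1) (Lv_mono (by omega) ⟨b.2.1, b.2.2.ge⟩) (xc_mem hp b.2.1 _)
  · rw [(coord hp b.2.1).add]
    conv_lhs => rw [e1, e2]
    group

theorem kap_one : kap hp lam i (1 : ↥(D.group 𝔽)) = 0 := by
  have h1 := kap_mul (lam := lam) hs hi (one_mem (US D l 𝔽 (Lv hp lam i))) (one_mem _)
  rw [mul_one] at h1
  exact (left_eq_add.1 h1)

theorem kap_inv {u : ↥(D.group 𝔽)} (hu : u ∈ US D l 𝔽 (Lv hp lam i)) : kap hp lam i u⁻¹ = -kap hp lam i u := by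
  have h1 := kap_mul hs hi (inv_mem hu) hu
  rw [inv_mul_cancel, kap_one hs hi] at h1
  exact (eq_neg_of_add_eq_zero_left h1.symm)

theorem kap_of_gt {u : ↥(D.group 𝔽)} (hu : u ∈ US D l 𝔽 (Lv hp lam (i + 1))) : kap hp lam i u = 0 := by
  funext b
  refine kap_eq hs hi ⟨u, ?_, ?_⟩
  · refine RGD.Sup_mono (S := Lv hp lam (i + 1)) (fun x hx => ?_) hu
    refine ⟨Lv_mono (by omega) hx, ?_⟩
    rintro rfl
    have h1 := hx.2
    have h2 := b.2.2
    omega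
  · rw [Pi.zero_apply, (coord hp b.2.1).zero, one_mul]

open Classical in
theorem kap_xc (b : Rl hp lam i) (c : 𝔽) : kap hp lam i (xc hp b.1 c) = Pi.single b c := by
  funext b'
  by_cases h : b' = b
  · subst h
    rw [Pi.single_eq_same]
    exact kap_eq hs hi ⟨1, one_mem _, (mul_one _).symm⟩
  · rw [Pi.single_eq_of_ne h]
    refine kap_eq hs hi ⟨xc hp b.1 c, ?_, ?_⟩
    · refine RGD.le_Sup (S := Lv hp lam i \ {b'.1}) ⟨⟨b.2.1, b.2.2.ge⟩, ?_⟩ (xc_mem hp b.2.1 c)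
      intro h1
      exact h (Subtype.ext h1.symm)
    · rw [(coord hp b'.2.1).zero, one_mul]

/-- **The kernel.** -/
theorem kap_ker {u : ↥(D.group 𝔽)} (hu : u ∈ US D l 𝔽 (Lv hp lam i)) (h0 : kap hp lam i u = 0) :
    u ∈ US D l 𝔽 (Lv hp lam (i + 1)) := by
  classical
  have := finite_W hp M.toCoxeterSystem
  have hfin : {x | IsRoot M.toCoxeterSystem hp.isCartan x}.Finite := RGD.finite_roots
  have key : ∀ s : Finset (Fin l → ℤ), (∀ b ∈ s, IsRoot M.toCoxeterSystem hp.isCartan b ∧ lam b = i) →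
      Bt hp lam i (Lv hp lam i \ (s : Set (Fin l → ℤ))) ∧ u ∈ US D l 𝔽 (Lv hp lam i \ (s : Set (Fin l → ℤ))) := by
    intro s
    induction s using Finset.induction_on with
    | empty =>
      intro _
      rw [Finset.coe_empty, Set.sdiff_empty]
      exact ⟨bt_Lv hi, hu⟩
    | insert b s _ ih =>
      intro hb
      obtain ⟨B, h1⟩ := ih fun x hx => hb x (Finset.mem_insert_of_mem hx)
      have hb1 := hb b (Finset.mem_insert_self b s)
      have e : Lv hp lam i \ ((insert b s : Finset (Fin l → ℤ)) : Set (Fin l → ℤ)) =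
          (Lv hp lam i \ (s : Set (Fin l → ℤ))) ∩ (Lv hp lam i \ {b}) := by
        ext x
        simp only [Finset.coe_insert, Set.mem_sdiff, Set.mem_insert_iff, Set.mem_inter_iff, Set.mem_singleton_iff]
        tauto
      rw [e]
      refine ⟨⟨hi, fun x hx => hx.1.1, fun x hx => ⟨B.ge hx, ((bt_Lv hi).diff hb1.2).ge hx⟩⟩, ?_⟩
      refine B.mem_inter hs ((bt_Lv hi).diff hb1.2) h1 ?_
      obtain ⟨t, h2, e2⟩ := kap_spec hi hu ⟨b, hb1⟩
      rw [h0, Pi.zero_apply, (coord hp hb1.1).zero, one_mul] at e2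
      rwa [e2]
  obtain ⟨-, h1⟩ := key (hfin.toFinset.filter fun b => lam b = i) (fun b hb => by
    rw [Finset.mem_filter, Set.Finite.mem_toFinset] at hb
    exact hb)
  refine RGD.Sup_mono (fun x hx => ?_) h1
  refine ⟨hx.1.1, ?_⟩
  have h2 : ¬ lam x = i := fun h => hx.2 (by
    rw [Finset.mem_coe, Finset.mem_filter, Set.Finite.mem_toFinset]
    exact ⟨hx.1.1, h⟩)
  have h3 := hx.1.2
  omega

omit hs hi in
theorem finite_Rl : Finite (Rl hp lam i) := by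
  have := finite_W hp M.toCoxeterSystem
  have hfin : {x | IsRoot M.toCoxeterSystem hp.isCartan x}.Finite := RGD.finite_roots
  exact (hfin.subset fun x (hx : IsRoot M.toCoxeterSystem hp.isCartan x ∧ lam x = i) => hx.1).to_subtype

/-- **Surjectivity.** -/
theorem kap_surj (f : Rl hp lam i → 𝔽) : ∃ u ∈ US D l 𝔽 (Lv hp lam i), kap hp lam i u = f := by
  classical
  have := finite_Rl (hp := hp) (lam := lam) (i := i)
  have := Fintype.ofFinite (Rl hp lam i)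
  have key : ∀ s : Finset (Rl hp lam i), ∃ u ∈ US D l 𝔽 (Lv hp lam i), kap hp lam i u = ∑ b ∈ s, Pi.single b (f b) := by
    intro s
    induction s using Finset.induction_on with
    | empty => exact ⟨1, one_mem _, by rw [kap_one hs hi, Finset.sum_empty]⟩
    | insert b s hb ih =>
      obtain ⟨u, hu, e⟩ := ih
      have h1 : xc hp b.1 (f b) ∈ US D l 𝔽 (Lv hp lam i) :=
        RGD.le_Sup (S := Lv hp lam i) ⟨b.2.1, b.2.2.ge⟩ (xc_mem hp b.2.1 _)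
      refine ⟨xc hp b.1 (f b) * u, mul_mem h1 hu, ?_⟩
      rw [kap_mul hs hi h1 hu, kap_xc hs hi, e, Finset.sum_insert hb]
  obtain ⟨u, hu, e⟩ := key Finset.univ
  refine ⟨u, hu, ?_⟩
  rw [e]
  exact Finset.univ_sum_single f

/-- **The torus.** -/
theorem kap_tor {t u : ↥(D.group 𝔽)} (ht : t ∈ TT D 𝔽) (hu : u ∈ US D l 𝔽 (Lv hp lam i)) (b : Rl hp lam i) :
    kap hp lam i (t * u * t⁻¹) b = ch hp b.1 t * kap hp lam i u b := by
  obtain ⟨s, h1, e⟩ := kap_spec hi hu b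
  refine kap_eq hs hi ⟨t * s * t⁻¹, ?_, ?_⟩
  · have key : US D l 𝔽 (Lv hp lam i \ {b.1}) ≤ (US D l 𝔽 (Lv hp lam i \ {b.1})).comap (MulAut.conj t).toMonoidHom := by
      refine RGD.Sup_le fun a ha g hg => ?_
      change t * g * t⁻¹ ∈ US D l 𝔽 (Lv hp lam i \ {b.1})
      obtain ⟨c, rfl⟩ := ((coord hp ha.1.1).mem _).1 hg
      rw [(coord hp ha.1.1).act t ht]
      exact RGD.le_Sup (S := Lv hp lam i \ {b.1}) ha (xc_mem hp ha.1.1 _)
    exact key h1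
  · rw [← (coord hp b.2.1).act t ht]
    conv_lhs => rw [e]
    group

/-- **Automorphisms.** -/
theorem kap_map {α : MulAut ↥(D.group 𝔽)} {θ : (Fin l → ℤ) ≃+ (Fin l → ℤ)}
    (F : Fr M.toCoxeterSystem hp.isCartan (TT D 𝔽) (XX D l 𝔽) α θ) (hlam : ∀ x, lam (θ x) = lam x)
    {u : ↥(D.group 𝔽)} (hu : u ∈ US D l 𝔽 (Lv hp lam i)) (b b' : Rl hp lam i) (hb : b'.1 = θ b.1) {g : 𝔽 → 𝔽}
    (hg : ∀ c, α (xc hp b.1 c) = xc hp (θ b.1) (g c)) : kap hp lam i (α u) b' = g (kap hp lam i u b) := by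
  obtain ⟨s, h1, e⟩ := kap_spec hi hu b
  refine kap_eq hs hi ⟨α s, ?_, ?_⟩
  · refine (F.mem_Sup (S := Lv hp lam i \ {b.1}) (fun a ha => ha.1.1) (fun a => ?_) s).2 h1
    rw [hb]
    constructor
    · rintro ⟨⟨h2, h3⟩, h4⟩
      rw [hlam] at h3
      exact ⟨⟨(F.root a).1 h2, h3⟩, fun h5 => h4 (by rw [Set.mem_singleton_iff] at h5 ⊢; rw [h5])⟩
    · rintro ⟨⟨h2, h3⟩, h4⟩
      refine ⟨⟨(F.root a).2 h2, by rw [hlam]; exact h3⟩, fun h5 => h4 ?_⟩
      rw [Set.mem_singleton_iff] at h5 ⊢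
      exact θ.injective h5
  · rw [hb, ← hg, ← map_mul, ← e]

omit hs hi in
theorem US_map {α : MulAut ↥(D.group 𝔽)} {θ : (Fin l → ℤ) ≃+ (Fin l → ℤ)}
    (F : Fr M.toCoxeterSystem hp.isCartan (TT D 𝔽) (XX D l 𝔽) α θ) (hlam : ∀ x, lam (θ x) = lam x)
    {u : ↥(D.group 𝔽)} : α u ∈ US D l 𝔽 (Lv hp lam i) ↔ u ∈ US D l 𝔽 (Lv hp lam i) :=
  F.mem_Sup (S := Lv hp lam i) (fun a ha => ha.1) (fun a => by
    constructor
    · rintro ⟨h2, h3⟩
      rw [hlam] at h3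
      exact ⟨(F.root a).1 h2, h3⟩
    · rintro ⟨h2, h3⟩
      exact ⟨(F.root a).2 h2, by rw [hlam]; exact h3⟩) u

end

end Cfsg.Agent.H24.MX
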