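import Cfsg.Agent.H24.MX.Desc
import Cfsg.Agent.H24.MX.Comb

/-!
# S3509 MIX, box M4t: `[U, y] = U` for `q ≥ 2` (helper24)

`UF_le_cmm_top` : `U ≤ [U, y]` if the characters of `y` are not trivial for `0 < lam b < i + j`, `lam ≤ i + j`, and the roots
of level `i + j` are sums of roots of levels `i` and `j`;
`UF_le_cmm_orb` : the case `lam x = ∑ ⟨x, (θ^i γ)^∨⟩`, `y = ∏ α^i (h_γ c)`, `c` of order `q ^ a - 1`, `a ≥ 2`, both signs.
-/

set_option autoImplicit false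
set_option linter.unusedSectionVars false

namespace Cfsg.Agent.H24.MX

open CoxeterSystem Cfsg Cfsg.Lie Cfsg.Lie.ChevalleyDatum
open Cfsg.Agent.ChevalleyStructure Cfsg.Agent.ChevalleyStructure.Elts Cfsg.Agent.ChevalleyStructure.CoxeterGeom
  Cfsg.Agent.ChevalleyStructure.CoxeterGeomTypes Cfsg.Agent.ChevalleyStructure.NPerm
open Cfsg.Agent.Tits.Roots Cfsg.Agent.Tits.Core Cfsg.Agent.Nodes Cfsg.Agent.Nodes.Reps Cfsg.Agent.Nodes.BNOf
  Cfsg.Agent.Nodes.RGDChev Cfsg.Agent.Nodes.Coroot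
open Cfsg.Agent.KFacts.RgdField Cfsg.Agent.KFacts.RgdChevCoord Cfsg.Agent.KFacts.RgdSL
open Cfsg.Agent.BpExc Cfsg.Agent.BpExc.Tow Cfsg.Agent.BpExc.TowChev Cfsg.Agent.BpExc.Fr Cfsg.Agent.BpExc.LangFr
open Cfsg.Agent.H469.Exc Cfsg.Agent.H316.U6 Cfsg.Agent.H129.TorusChar Cfsg.Agent.H380.RC Cfsg.Agent.H520.MX

universe v

variable {D : ChevalleyDatum} {l : ℕ} {M : CoxeterMatrix (Fin l)} {hp : IsType D l M} {r q : ℕ} [hr : Fact r.Prime]
  {K₀ : Type v} [Group K₀]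

/-- **`U ≤ [U, y]`.** -/
theorem UF_le_cmm_top (hs : SL M.toCoxeterSystem hp.isCartan) (m : MData hp r q K₀) {z n : ↥(D.group (KK r))}
    (hz : z⁻¹ * m.σ z = n) {θ : (Fin l → ℤ) ≃+ (Fin l → ℤ)}
    (F : Fr M.toCoxeterSystem hp.isCartan (TT D (KK r)) (XX D l (KK r)) (MulAut.conj n * m.σ) θ)
    {lam : (Fin l → ℤ) →+ ℤ} (hlam : ∀ x, lam (θ x) = lam x) {i j : ℤ}
    (hi : 0 < i) (hj : 0 < j) (htop : ∀ b, IsRoot M.toCoxeterSystem hp.isCartan b → lam b ≤ i + j)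
    (hdec : ∀ b, IsRoot M.toCoxeterSystem hp.isCartan b → lam b = i + j →
      ∃ x y, IsRoot M.toCoxeterSystem hp.isCartan x ∧ IsRoot M.toCoxeterSystem hp.isCartan y ∧ lam x = i ∧ lam y = j ∧ x + y = b)
    {y : ↥(D.group (KK r))} (hy : y ∈ TT D (KK r)) (hα : (MulAut.conj n * m.σ) y = y)
    (hS : ∀ b, IsRoot M.toCoxeterSystem hp.isCartan b → 0 < lam b → lam b < i + j → cX hp y b ≠ 1) :
    UF hp r lam (MulAut.conj n * m.σ) ≤ cmm (UF hp r lam (MulAut.conj n * m.σ)) y := by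
  have := finite_UF m hz lam
  have hLv : Lv hp lam 1 = {a | IsRoot M.toCoxeterSystem hp.isCartan a ∧ 0 < lam a} := by
    ext x
    exact ⟨fun h => ⟨h.1, by have := h.2; omega⟩, fun h => ⟨h.1, by have := h.2; omega⟩⟩
  refine fix_le_cmm (hp := hp) (e := m.e) hs m.he (m.frob.conj_mul n) F hlam hi hj htop hdec (fun u => ?_) hy hα
    (fun b hb h0 h1 => ?_)
  · rw [hLv]
    exact mem_UF
  · rw [← cX_root hp M.toCoxeterSystem hy hb]
    exact hS b hb h0 h1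

/-- **`U^± ≤ [U^±, y]` for the functional of a `θ`-orbit of orthogonal roots.** -/
theorem UF_le_cmm_orb (h4 : ∀ i j, M i j ≠ 4) (h6 : ∀ i j, M i j ≠ 6) (m : MData hp r q K₀) {z n : ↥(D.group (KK r))}
    (hz : z⁻¹ * m.σ z = n) {θ : (Fin l → ℤ) ≃+ (Fin l → ℤ)}
    (F : Fr M.toCoxeterSystem hp.isCartan (TT D (KK r)) (XX D l (KK r)) (MulAut.conj n * m.σ) θ)
    {a : ℕ} (ha : 2 ≤ a) (hodd : a = 2 → oddChk D l = true) {γ : Fin l → ℤ} (hγ : IsRoot M.toCoxeterSystem hp.isCartan γ)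
    (hper : θ^[a] γ = γ)
    (ho : ∀ i < a, ∀ j < a, i ≠ j → cpr M.toCoxeterSystem hp.isCartan (θ^[i] γ) (θ^[j] γ) = 0)
    (hθ : ∀ x y, IsRoot M.toCoxeterSystem hp.isCartan x → IsRoot M.toCoxeterSystem hp.isCartan y →
      cpr M.toCoxeterSystem hp.isCartan (θ x) (θ y) = cpr M.toCoxeterSystem hp.isCartan x y)
    {c : KK r} (hc : c ≠ 0) (hoc : orderOf c = q ^ a - 1)
    {y : ↥(D.group (KK r))} (hy : y ∈ TT D (KK r)) (hα : (MulAut.conj n * m.σ) y = y)
    (hcX : ∀ b, IsRoot M.toCoxeterSystem hp.isCartan b →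
      cX hp y b = ∏ i ∈ Finset.range a, c ^ ((q : ℤ) ^ i * cpr M.toCoxeterSystem hp.isCartan b (θ^[i] γ)))
    {lam : (Fin l → ℤ) →+ ℤ} (hlam : ∀ x, lam x = ∑ i ∈ Finset.range a, cpr M.toCoxeterSystem hp.isCartan x (θ^[i] γ))
    (hinv : ∀ x, lam (θ x) = lam x) :
    UF hp r lam (MulAut.conj n * m.σ) ≤ cmm (UF hp r lam (MulAut.conj n * m.σ)) y ∧
      UF hp r (-lam) (MulAut.conj n * m.σ) ≤ cmm (UF hp r (-lam) (MulAut.conj n * m.σ)) y := by
  have := finite_W hp M.toCoxeterSystem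
  have hs : SL M.toCoxeterSystem hp.isCartan := sl_of h4 h6
  have hq : 2 ≤ q := by
    have h1 : r ^ m.e = q := m.hq
    rw [← h1]
    exact hr.out.two_le.trans (Nat.le_self_pow m.he.ne' r)
  have hroot : ∀ i : ℕ, IsRoot M.toCoxeterSystem hp.isCartan (θ^[i] γ) := by
    intro i
    induction i with
    | zero => exact hγ
    | succ i ih => rw [Function.iterate_succ_apply']; exact (F.root _).2 ih
  have hg : ∀ i < a, IsRoot M.toCoxeterSystem hp.isCartan ((fun i => θ^[i] γ) i) := fun i _ => hroot i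
  have ho' : ∀ i < a, ∀ j < a, i ≠ j →
    cpr M.toCoxeterSystem hp.isCartan ((fun i => θ^[i] γ) i) ((fun i => θ^[i] γ) j) = 0 := ho
  have hle : ∀ b, IsRoot M.toCoxeterSystem hp.isCartan b → lam b ≤ a := fun b hb => lam_le hs hg ho' hlam ha hb
  have hS : ∀ b, IsRoot M.toCoxeterSystem hp.isCartan b → 0 < lam b → lam b < a → cX hp y b ≠ 1 := by
    intro b hb h0 h1
    rw [hcX b hb]
    rw [hlam] at h0 h1
    exact prod_ne_one2 hc hq ha hoc (ec_root hs hg ho' hb) h0 h1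
  have hSn : ∀ b, IsRoot M.toCoxeterSystem hp.isCartan b → 0 < (-lam) b → (-lam) b < a → cX hp y b ≠ 1 := by
    intro b hb h0 h1 h2
    refine hS (-b) hb.neg ?_ ?_ ?_
    · rw [map_neg]; exact h0
    · rw [map_neg]; exact h1
    · rw [hcX b hb] at h2
      rw [hcX _ hb.neg, ← inv_inj, inv_one, ← Finset.prod_inv_distrib]
      rw [← h2]
      refine Finset.prod_congr rfl fun i _ => ?_
      rw [cpr_neg _ _ _ (hroot i), mul_neg, zpow_neg, inv_inv]
  have hinv' : ∀ x, (-lam) (θ x) = (-lam) x := fun x => by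
    rw [AddMonoidHom.neg_apply, AddMonoidHom.neg_apply, hinv]
  have hle' : ∀ b, IsRoot M.toCoxeterSystem hp.isCartan b → (-lam) b ≤ a := fun b hb => by
    have := hle (-b) hb.neg
    rwa [map_neg] at this
  -- the two cases
  obtain ⟨i, j, hi, hj, hij, hdec⟩ : ∃ i j : ℤ, 0 < i ∧ 0 < j ∧ i + j = a ∧
      ∀ b, IsRoot M.toCoxeterSystem hp.isCartan b → lam b = i + j →
      ∃ x y, IsRoot M.toCoxeterSystem hp.isCartan x ∧ IsRoot M.toCoxeterSystem hp.isCartan y ∧ lam x = i ∧ lam y = j ∧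
        x + y = b := by
    rcases Nat.lt_or_ge 2 a with h3 | h2
    · exact ⟨2, (a : ℤ) - 2, by norm_num, by omega, by ring, fun b hb hb0 => dec_ge_three hs hg ho' hlam h3 hb hb0⟩
    · have ha2 : a = 2 := le_antisymm h2 ha
      refine ⟨1, 1, one_pos, one_pos, by rw [ha2]; norm_num, fun b hb hb0 => ?_⟩
      subst ha2
      have h1 := odd_of_check hp M.toCoxeterSystem hs (hodd rfl) (hroot 0) (hroot 1) (ho 1 (by norm_num) 0 (by norm_num) (by norm_num))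
      obtain ⟨c', hc', hodd'⟩ := h1
      refine dec_two hs hg ho' hlam rfl hθ (fun x => F.root x) rfl hper ⟨c', hc', ?_⟩ hb hb0
      rw [hlam, Finset.sum_range_succ, Finset.sum_range_one]
      exact hodd'
  constructor
  · refine UF_le_cmm_top (hp := hp) hs m hz F hinv hi hj (fun b hb => by rw [hij]; exact hle b hb) hdec hy hα
      (fun b hb h0 h1 => hS b hb h0 (by rw [← hij]; exact h1))
  · refine UF_le_cmm_top (hp := hp) hs m hz F hinv' hi hj (fun b hb => by rw [hij]; exact hle' b hb) (fun b hb hb0 => ?_) hy hα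
      (fun b hb h0 h1 => hSn b hb h0 (by rw [← hij]; exact h1))
    obtain ⟨x, x', hx, hx', h1, h2, e⟩ := hdec (-b) hb.neg (by rw [map_neg]; exact hb0)
    exact ⟨-x, -x', hx.neg, hx'.neg, by rw [AddMonoidHom.neg_apply, map_neg, neg_neg]; exact h1,
      by rw [AddMonoidHom.neg_apply, map_neg, neg_neg]; exact h2, by rw [← neg_add, e, neg_neg]⟩

end Cfsg.Agent.H24.MX
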